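import Mathlib

/-!
# 2-adic valuations of the orders of orthogonal groups
-/

set_option autoImplicit false

namespace Cfsg.Agent.Lib.Char.SylowSq.Arith

/-- The 2-adic valuation. -/
abbrev v2 (n : ℕ) : ℕ := n.factorization 2

theorem v2_mul {a b : ℕ} (ha : a ≠ 0) (hb : b ≠ 0) : v2 (a * b) = v2 a + v2 b := by
  simp only [v2, Nat.factorization_mul ha hb, Finsupp.add_apply]

theorem v2_eq_padic (n : ℕ) : v2 n = padicValNat 2 n := Nat.factorization_def n Nat.prime_two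

theorem v2_two : v2 2 = 1 := Nat.prime_two.factorization_self

theorem v2_odd {n : ℕ} (h : Odd n) : v2 n = 0 :=
  Nat.factorization_eq_zero_of_not_dvd (by
    rw [Nat.odd_iff] at h
    omega)

theorem v2_of_mod4 {x : ℕ} (h : x % 4 = 2) : v2 x = 1 := by
  obtain ⟨y, rfl⟩ : ∃ y, x = 2 * y := ⟨x / 2, by omega⟩
  have hy : Odd y := by
    rw [Nat.odd_iff]
    omega
  rw [v2_mul (by norm_num) hy.pos.ne', v2_two, v2_odd hy]

variable {q : ℕ}

theorem pow_pos' (hq1 : 1 < q) (n : ℕ) : 0 < q ^ n := by positivity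

theorem pow_gt_one (hq1 : 1 < q) {n : ℕ} (hn : n ≠ 0) : 1 < q ^ n := Nat.one_lt_pow hn hq1

/-- `x² - 1 = (x - 1)(x + 1)`. -/
theorem sq_sub_one_eq (x : ℕ) (hx : 1 ≤ x) : x ^ 2 - 1 = (x - 1) * (x + 1) := by
  obtain ⟨y, rfl⟩ : ∃ y, x = y + 1 := ⟨x - 1, by omega⟩
  simp only [Nat.add_sub_cancel]
  have : (y + 1) ^ 2 = y * (y + 1 + 1) + 1 := by ring
  rw [this, Nat.add_sub_cancel]

theorem v2_sq_sub_one {x : ℕ} (hx : 1 < x) : v2 (x ^ 2 - 1) = v2 (x - 1) + v2 (x + 1) := by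
  rw [sq_sub_one_eq x hx.le, v2_mul (by omega) (by omega)]

/-- Lifting the exponent for even exponents. -/
theorem v2_pow_even (hq : Odd q) (hq1 : 1 < q) {n : ℕ} (hn : n ≠ 0) (he : Even n) :
    v2 (q ^ n - 1) + 1 = v2 (q ^ 2 - 1) + v2 n := by
  have h := padicValNat.pow_two_sub_one hq1 (by
    rw [Nat.odd_iff] at hq
    omega) hn he
  rw [v2_sq_sub_one hq1]
  simp only [v2_eq_padic]
  omega

theorem v2_pow_two_mul (hq : Odd q) (hq1 : 1 < q) {i : ℕ} (hi : i ≠ 0) :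
    v2 (q ^ (2 * i) - 1) = v2 (q ^ 2 - 1) + v2 i := by
  have h := v2_pow_even hq hq1 (n := 2 * i) (by omega) (by simp)
  rw [v2_mul (by norm_num) hi, v2_two] at h
  omega

theorem prod_ne_zero (hq1 : 1 < q) (m : ℕ) : ∏ i ∈ Finset.range m, (q ^ (2 * (i + 1)) - 1) ≠ 0 := by
  rw [Finset.prod_ne_zero_iff]
  intro i _
  have := pow_gt_one hq1 (n := 2 * (i + 1)) (by omega)
  omega

/-- The product over the even degrees. -/
theorem v2_prod (hq : Odd q) (hq1 : 1 < q) (m : ℕ) :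
    v2 (∏ i ∈ Finset.range m, (q ^ (2 * (i + 1)) - 1)) = m * v2 (q ^ 2 - 1) + v2 m.factorial := by
  induction m with
  | zero => simp
  | succ n ih =>
    have h1 : q ^ (2 * (n + 1)) - 1 ≠ 0 := by
      have := pow_gt_one hq1 (n := 2 * (n + 1)) (by omega)
      omega
    rw [Finset.prod_range_succ, v2_mul (prod_ne_zero hq1 n) h1, ih, v2_pow_two_mul hq hq1 (by omega),
      Nat.factorial_succ, v2_mul (by omega) (Nat.factorial_ne_zero n)]
    ring

theorem v2_q_pow (hq : Odd q) (e : ℕ) : v2 (q ^ e) = 0 := v2_odd hq.pow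

/-- Valuation of `2 q^e x ∏`. -/
theorem v2_order (hq : Odd q) (hq1 : 1 < q) (e m : ℕ) {x : ℕ} (hx : x ≠ 0) :
    v2 (2 * q ^ e * x * ∏ i ∈ Finset.range m, (q ^ (2 * (i + 1)) - 1)) =
      1 + v2 x + m * v2 (q ^ 2 - 1) + v2 m.factorial := by
  have h0 : q ^ e ≠ 0 := (pow_pos' hq1 e).ne'
  rw [v2_mul (mul_ne_zero (mul_ne_zero (by norm_num) h0) hx) (prod_ne_zero hq1 m),
    v2_mul (mul_ne_zero (by norm_num) h0) hx, v2_mul (by norm_num) h0, v2_two, v2_q_pow hq, v2_prod hq hq1]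
  ring

theorem v2_order_odd (hq : Odd q) (hq1 : 1 < q) (e m : ℕ) :
    v2 (2 * q ^ e * ∏ i ∈ Finset.range m, (q ^ (2 * (i + 1)) - 1)) =
      v2 (q ^ 2 - 1) * m + 1 + v2 m.factorial := by
  have h := v2_order hq hq1 e m (x := 1) (by norm_num)
  rw [mul_one] at h
  rw [h]
  simp only [v2, Nat.factorization_one, Finsupp.coe_zero, Pi.zero_apply]
  ring

theorem pow_mod4_even (hq : Odd q) {n : ℕ} (he : Even n) : q ^ n % 4 = 1 := by
  obtain ⟨k, rfl⟩ := he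
  rw [← two_mul, pow_mul, Nat.pow_mod]
  have : q ^ 2 % 4 = 1 := by
    rw [Nat.pow_mod]
    rw [Nat.odd_iff] at hq
    have : q % 4 = 1 ∨ q % 4 = 3 := by omega
    rcases this with h | h <;> simp [h]
  rw [this]
  simp

theorem pow_mod4_of_one (h : q % 4 = 1) (n : ℕ) : q ^ n % 4 = 1 := by
  rw [Nat.pow_mod, h]
  simp

theorem pow_mod4_of_three (h : q % 4 = 3) {n : ℕ} (ho : Odd n) : q ^ n % 4 = 3 := by
  obtain ⟨k, rfl⟩ := ho
  rw [pow_succ, pow_mul, Nat.mul_mod, Nat.pow_mod, Nat.pow_mod q 2]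
  rw [h]
  simp

/-- For odd `n`: the valuations of `q^n - 1` and `q^n + 1` add up to `v2 (q² - 1)`. -/
theorem v2_pow_odd_add (hq : Odd q) (hq1 : 1 < q) {n : ℕ} (ho : Odd n) :
    v2 (q ^ n - 1) + v2 (q ^ n + 1) = v2 (q ^ 2 - 1) := by
  have h1 := v2_sq_sub_one (pow_gt_one hq1 (n := n) ho.pos.ne')
  have h2 := v2_pow_two_mul hq hq1 (i := n) ho.pos.ne'
  rw [v2_odd ho, add_zero] at h2
  rw [← pow_mul, mul_comm n 2, h2] at h1
  exact h1.symm

/-! ### The four shapes of the orders -/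

/-- Plus type, `(-1)^m` a square. -/
theorem v2_plus_good (hq : Odd q) (hq1 : 1 < q) {m : ℕ} (hm : 1 ≤ m) (h : Even m ∨ q % 4 = 1) :
    v2 (2 * q ^ (m * (m - 1)) * (q ^ m - 1) * ∏ i ∈ Finset.range (m - 1), (q ^ (2 * (i + 1)) - 1)) =
      v2 (q ^ 2 - 1) * m + 0 + v2 m.factorial := by
  obtain ⟨n, rfl⟩ : ∃ n, m = n + 1 := ⟨m - 1, by omega⟩
  have hx : q ^ (n + 1) - 1 ≠ 0 := by
    have := pow_gt_one hq1 (n := n + 1) (by omega)
    omega
  rw [Nat.add_sub_cancel, v2_order hq hq1 _ n hx, Nat.factorial_succ,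
    v2_mul (by omega) (Nat.factorial_ne_zero n)]
  rcases Nat.even_or_odd (n + 1) with he | ho
  · have h1 := v2_pow_even hq hq1 (n := n + 1) (by omega) he
    have : v2 (q ^ 2 - 1) * (n + 1) = n * v2 (q ^ 2 - 1) + v2 (q ^ 2 - 1) := by ring
    omega
  · have h3 : q % 4 = 1 := by
      rcases h with h | h
      · exact absurd ho (Nat.not_odd_iff_even.2 h)
      · exact h
    have h1 := v2_pow_odd_add hq hq1 ho
    have h2 : v2 (q ^ (n + 1) + 1) = 1 := v2_of_mod4 (by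
      have := pow_mod4_of_one h3 (n + 1)
      omega)
    have h4 := v2_odd ho
    have : v2 (q ^ 2 - 1) * (n + 1) = n * v2 (q ^ 2 - 1) + v2 (q ^ 2 - 1) := by ring
    omega

/-- Plus type, `(-1)^m` not a square. -/
theorem v2_plus_bad (hq : Odd q) (hq1 : 1 < q) {m : ℕ} (hm : 1 ≤ m) (ho : Odd m) (h : q % 4 = 3) :
    v2 (2 * q ^ (m * (m - 1)) * (q ^ m - 1) * ∏ i ∈ Finset.range (m - 1), (q ^ (2 * (i + 1)) - 1)) =
      v2 (q ^ 2 - 1) * (m - 1) + 2 + v2 (m - 1).factorial := by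
  have hx : q ^ m - 1 ≠ 0 := by
    have := pow_gt_one hq1 (n := m) (by omega)
    omega
  rw [v2_order hq hq1 _ _ hx]
  have h2 : v2 (q ^ m - 1) = 1 := v2_of_mod4 (by
    have := pow_mod4_of_three h ho
    have h5 := pow_gt_one hq1 (n := m) (by omega)
    omega)
  rw [h2]
  ring

/-- Minus type, `q^M ≡ 3 mod 4`. -/
theorem v2_minus_good (hq : Odd q) (hq1 : 1 < q) {m : ℕ} (ho : Odd m) (h : q % 4 = 3) :
    v2 (2 * q ^ (m * (m - 1)) * (q ^ m + 1) * ∏ i ∈ Finset.range (m - 1), (q ^ (2 * (i + 1)) - 1)) =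
      v2 (q ^ 2 - 1) * m + 0 + v2 m.factorial := by
  obtain ⟨n, rfl⟩ : ∃ n, m = n + 1 := ⟨m - 1, by have := ho.pos; omega⟩
  rw [Nat.add_sub_cancel, v2_order hq hq1 _ n (by omega), Nat.factorial_succ,
    v2_mul (by omega) (Nat.factorial_ne_zero n)]
  have h1 := v2_pow_odd_add hq hq1 ho
  have h2 : v2 (q ^ (n + 1) - 1) = 1 := v2_of_mod4 (by
    have := pow_mod4_of_three h ho
    have h5 := pow_gt_one hq1 (n := n + 1) (by omega)
    omega)
  have h4 := v2_odd ho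
  have : v2 (q ^ 2 - 1) * (n + 1) = n * v2 (q ^ 2 - 1) + v2 (q ^ 2 - 1) := by ring
  omega

/-- Minus type, `q^M ≡ 1 mod 4`. -/
theorem v2_minus_other (hq : Odd q) (hq1 : 1 < q) {m : ℕ} (h : q ^ m % 4 = 1) :
    v2 (2 * q ^ (m * (m - 1)) * (q ^ m + 1) * ∏ i ∈ Finset.range (m - 1), (q ^ (2 * (i + 1)) - 1)) =
      v2 (q ^ 2 - 1) * (m - 1) + 2 + v2 (m - 1).factorial := by
  rw [v2_order hq hq1 _ _ (by omega)]
  have h2 : v2 (q ^ m + 1) = 1 := v2_of_mod4 (by omega)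
  rw [h2]
  ring

end Cfsg.Agent.Lib.Char.SylowSq.Arith
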