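import Mathlib
import Cfsg.Agent.Lib.Basic.SylowUtil

/-!
# Squares in Sylow 2-subgroups modulo the derived subgroup: wreath-like subgroups

The abstract group theory behind `P/P'` elementary abelian for Sylow `2`-subgroups of `Ω`.
-/

set_option autoImplicit false
set_option linter.unusedSectionVars false

namespace Cfsg.Agent.Lib.Char.SylowSq.Core

open Subgroup
open scoped commutatorElement

/-- Every square lies in the derived subgroup. -/
def SqD (M : Type*) [Group M] : Prop := ∀ x : M, x ^ 2 ∈ commutator M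

theorem SqD.of_equiv {M M' : Type*} [Group M] [Group M'] (e : M ≃* M') (h : SqD M') : SqD M := by
  intro x
  have h1 := h (e x)
  have h2 : (commutator M).map e.toMonoidHom = commutator M' := by
    rw [_root_.commutator_def, _root_.commutator_def, map_commutator, map_top_of_surjective _ e.surjective]
  rw [← h2, ← map_pow] at h1
  obtain ⟨y, hy, hxy⟩ := h1
  have : y = x ^ 2 := e.injective hxy
  rwa [← this]

/-- Every square of an element of `H` lies in `[H, H]`. -/
def SqIn {G : Type*} [Group G] (H : Subgroup G) : Prop := ∀ x ∈ H, x ^ 2 ∈ ⁅H, H⁆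

theorem SqD_of_SqIn {G : Type*} [Group G] {H : Subgroup G} (h : SqIn H) : SqD H := by
  intro x
  have h1 := h x x.2
  rw [← map_subtype_commutator] at h1
  obtain ⟨y, hy, hxy⟩ := h1
  have : y = x ^ 2 := by
    apply Subtype.ext
    simpa using hxy
  rwa [← this]

/-- From one Sylow subgroup of `G` to all Sylow subgroups of the derived subgroup. -/
theorem sqD_of_sylow {G : Type*} [Group G] [Finite G] (P₀ : Sylow 2 G)
    (h : SqIn ((P₀ : Subgroup G) ⊓ commutator G)) (P : Sylow 2 (commutator G)) : SqD P := by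
  obtain ⟨Q, hQ⟩ := Cfsg.Agent.Lib.Basic.SylowUtil.exists_sylow_inf_normal P₀ (commutator G)
  have h1 : SqD ((Q : Subgroup (commutator G)).map (commutator G).subtype) := by
    rw [hQ]
    exact SqD_of_SqIn h
  have h2 : SqD Q :=
    SqD.of_equiv ((Q : Subgroup (commutator G)).equivMapOfInjective _ (commutator G).subtype_injective) h1
  exact SqD.of_equiv (P.equiv Q) h2

theorem conj_inv_of {A : Type*} [Group A] {r d : A} (h : r * d * r⁻¹ = d⁻¹) : r * d⁻¹ * r⁻¹ = d := by
  have h1 : (r * d * r⁻¹)⁻¹ = r * d⁻¹ * r⁻¹ := by group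
  rw [← h1, h, inv_inv]

section Wreath

variable {G κ A A' : Type*} [Group G] [Group A] [Group A'] [DecidableEq κ]

/-- Permutation action on the base. -/
def act (π : Equiv.Perm κ) (b : (κ → A) × A') : (κ → A) × A' := (fun i => b.1 (π⁻¹ i), b.2)

omit [DecidableEq κ] in
@[simp] theorem act_one (b : (κ → A) × A') : act (1 : Equiv.Perm κ) b = b := rfl

omit [DecidableEq κ] in
theorem act_mul_perm (π π' : Equiv.Perm κ) (b : (κ → A) × A') : act (π * π') b = act π (act π' b) := by
  simp only [act, mul_inv_rev]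
  rfl

omit [DecidableEq κ] in
theorem act_mul (π : Equiv.Perm κ) (b b' : (κ → A) × A') : act π (b * b') = act π b * act π b' := rfl

omit [DecidableEq κ] in
theorem act_inv (π : Equiv.Perm κ) (b : (κ → A) × A') : act π b⁻¹ = (act π b)⁻¹ := rfl

variable (β : (κ → A) × A' →* G) (s : Equiv.Perm κ →* G)

/-- The wreath-like subgroup `β(base) · s(T)`. -/
def wr (hconj : ∀ π b, s π * β b * (s π)⁻¹ = β (act π b)) (T : Subgroup (Equiv.Perm κ)) : Subgroup G where
  carrier := {g | ∃ b π, π ∈ T ∧ g = β b * s π}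
  mul_mem' := by
    rintro _ _ ⟨b, π, hπ, rfl⟩ ⟨b', π', hπ', rfl⟩
    refine ⟨b * act π b', π * π', T.mul_mem hπ hπ', ?_⟩
    rw [map_mul, ← hconj, map_mul]
    group
  one_mem' := ⟨1, 1, T.one_mem, by simp⟩
  inv_mem' := by
    rintro _ ⟨b, π, hπ, rfl⟩
    refine ⟨act π⁻¹ b⁻¹, π⁻¹, T.inv_mem hπ, ?_⟩
    rw [← hconj, map_inv, map_inv]
    group

variable {β s}
variable {hconj : ∀ π b, s π * β b * (s π)⁻¹ = β (act π b)} {T : Subgroup (Equiv.Perm κ)}

theorem mem_wr {g : G} : g ∈ wr β s hconj T ↔ ∃ b π, π ∈ T ∧ g = β b * s π := Iff.rfl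

theorem beta_mem_wr (b : (κ → A) × A') : β b ∈ wr β s hconj T :=
  ⟨b, 1, T.one_mem, by simp⟩

theorem s_mem_wr {π : Equiv.Perm κ} (hπ : π ∈ T) : s π ∈ wr β s hconj T :=
  ⟨1, π, hπ, by simp⟩

variable (hs : ∀ π, s π ∈ commutator G)

include hs

/-- The standard commutator `[d@i, τ] = d@i * (d⁻¹)@j`. -/
theorem comm_swap (hconj : ∀ π b, s π * β b * (s π)⁻¹ = β (act π b)) {i j : κ} (d : A) (h : i ≠ j) :
    β (Pi.mulSingle i d * Pi.mulSingle j d⁻¹, 1) ∈ commutator G := by
  have h1 : β (Pi.mulSingle i d * Pi.mulSingle j d⁻¹, 1) =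
      ⁅β (Pi.mulSingle i d, 1), s (Equiv.swap i j)⁆ := by
    rw [commutatorElement_def]
    have h2 : s (Equiv.swap i j) * (β (Pi.mulSingle i d, 1))⁻¹ * (s (Equiv.swap i j))⁻¹ =
        β (Pi.mulSingle j d⁻¹, 1) := by
      rw [← map_inv, hconj]
      congr 1
      refine Prod.ext ?_ (by simp [act])
      funext x
      simp only [act, Prod.fst_inv, Pi.inv_apply, Equiv.swap_inv]
      by_cases hx : x = j
      · subst hx; simp
      · rw [Pi.mulSingle_eq_of_ne hx]
        by_cases hx' : x = i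
        · subst hx'; simp [Ne.symm h]
        · rw [Equiv.swap_apply_of_ne_of_ne hx' hx]
          simp [hx']
    calc β (Pi.mulSingle i d * Pi.mulSingle j d⁻¹, 1)
        = β ((Pi.mulSingle i d, 1) * (Pi.mulSingle j d⁻¹, 1)) := by simp
      _ = β (Pi.mulSingle i d, 1) * β (Pi.mulSingle j d⁻¹, 1) := map_mul _ _ _
      _ = _ := by rw [← h2]; group
  rw [h1]
  rw [_root_.commutator_def]
  exact commutator_mem_commutator (Subgroup.mem_top _) (Subgroup.mem_top _)

omit hs in
/-- `d²@j` is a commutator when `r₀` inverts `d`. -/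
theorem comm_inv {r₀ d : A} (hd : r₀ * d * r₀⁻¹ = d⁻¹) (j : κ) :
    β (Pi.mulSingle j (d * d), 1) ∈ commutator G := by
  have h1 : β (Pi.mulSingle j (d * d), 1) = ⁅β (Pi.mulSingle j r₀, 1), β (Pi.mulSingle j d⁻¹, 1)⁆ := by
    rw [← map_commutatorElement]
    congr 1
    have h2 : ⁅r₀, d⁻¹⁆ = d * d := by
      rw [commutatorElement_def]
      have : r₀ * d⁻¹ * r₀⁻¹ = d := conj_inv_of hd
      rw [this]; group
    refine Prod.ext ?_ ?_
    · simp only [commutatorElement_def, Prod.fst_mul, Prod.fst_inv]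
      funext x
      simp only [Pi.mul_apply, Pi.inv_apply]
      by_cases hx : x = j
      · subst hx
        simp only [Pi.mulSingle_eq_same]
        rw [← commutatorElement_def, h2]
      · simp [Pi.mulSingle_eq_of_ne hx]
    · simp [commutatorElement_def]
  rw [h1, _root_.commutator_def]
  exact commutator_mem_commutator (Subgroup.mem_top _) (Subgroup.mem_top _)

/-- Squares of the base elements at one coordinate are in `R'`. -/
theorem single_sq_mem (hconj : ∀ π b, s π * β b * (s π)⁻¹ = β (act π b))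
    {r₀ d : A} (hr : r₀ * r₀ = 1) (hd : r₀ * d * r₀⁻¹ = d⁻¹) {i j l : κ}
    (hij : i ≠ j) (hil : i ≠ l) (hjl : j ≠ l) :
    β (Pi.mulSingle i (d * d), 1) ∈
      ⁅wr β s hconj T ⊓ commutator G, wr β s hconj T ⊓ commutator G⁆ := by
  have hr' : r₀⁻¹ = r₀ := inv_eq_of_mul_eq_one_left hr
  -- the commutator factors
  have hu : β (Pi.mulSingle i r₀ * Pi.mulSingle l r₀, 1) ∈ wr β s hconj T ⊓ commutator G := by
    refine ⟨beta_mem_wr _, ?_⟩
    have := comm_swap hs hconj (i := i) (j := l) r₀ hil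
    rwa [hr'] at this
  have hv : β (Pi.mulSingle i d⁻¹ * Pi.mulSingle j d⁻¹, 1) ∈ wr β s hconj T ⊓ commutator G := by
    refine ⟨beta_mem_wr _, ?_⟩
    have h1 := comm_swap hs hconj (i := i) (j := j) d⁻¹ hij
    have hd' : r₀ * d⁻¹ * r₀⁻¹ = (d⁻¹)⁻¹ := by
      rw [inv_inv]
      exact conj_inv_of hd
    have h2 := comm_inv (β := β) hd' j
    have h3 : β (Pi.mulSingle i d⁻¹ * Pi.mulSingle j d⁻¹, 1) =
        β (Pi.mulSingle i d⁻¹ * Pi.mulSingle j d⁻¹⁻¹, 1) * β (Pi.mulSingle j (d⁻¹ * d⁻¹), 1) := by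
      rw [← map_mul]
      congr 1
      refine Prod.ext ?_ (by simp)
      simp only [Prod.mk_mul_mk, mul_one]
      rw [mul_assoc, ← Pi.mulSingle_mul]
      simp
    rw [h3]
    exact (commutator G).mul_mem h1 h2
  have h4 : β (Pi.mulSingle i (d * d), 1) =
      ⁅β (Pi.mulSingle i r₀ * Pi.mulSingle l r₀, 1), β (Pi.mulSingle i d⁻¹ * Pi.mulSingle j d⁻¹, 1)⁆ := by
    rw [← map_commutatorElement]
    congr 1
    have h5 : ⁅r₀, d⁻¹⁆ = d * d := by
      rw [commutatorElement_def]
      have : r₀ * d⁻¹ * r₀⁻¹ = d := conj_inv_of hd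
      rw [this]; group
    refine Prod.ext ?_ ?_
    · simp only [commutatorElement_def, Prod.fst_mul, Prod.fst_inv]
      funext x
      simp only [Pi.mul_apply, Pi.inv_apply]
      by_cases hxi : x = i
      · subst hxi
        simp only [Pi.mulSingle_eq_same, Pi.mulSingle_eq_of_ne hij, Pi.mulSingle_eq_of_ne hil, mul_one]
        rw [← commutatorElement_def, h5]
      · by_cases hxj : x = j
        · subst hxj
          simp [Pi.mulSingle_eq_of_ne hxi, Pi.mulSingle_eq_of_ne hjl]
        · by_cases hxl : x = l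
          · subst hxl
            simp [Pi.mulSingle_eq_of_ne hxi, Pi.mulSingle_eq_of_ne hxj]
          · simp [Pi.mulSingle_eq_of_ne hxi, Pi.mulSingle_eq_of_ne hxj, Pi.mulSingle_eq_of_ne hxl]
    · simp [commutatorElement_def]
  rw [h4]
  exact commutator_mem_commutator hu hv

/-- The squares of base elements are in `R'`. -/
theorem beta_sq_mem [Fintype κ] (hconj : ∀ π b, s π * β b * (s π)⁻¹ = β (act π b))
    {r₀ : A} (hr : r₀ * r₀ = 1) (hdich : ∀ d : A, d * d = 1 ∨ r₀ * d * r₀⁻¹ = d⁻¹)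
    (hE : ∀ e : A', e * e = 1) (hκ : 3 ≤ Fintype.card κ) (b : (κ → A) × A') :
    β (b * b) ∈ ⁅wr β s hconj T ⊓ commutator G, wr β s hconj T ⊓ commutator G⁆ := by
  have hstep : ∀ S : Finset κ, β (fun t => if t ∈ S then b.1 t * b.1 t else 1, 1) ∈
      ⁅wr β s hconj T ⊓ commutator G, wr β s hconj T ⊓ commutator G⁆ := by
    intro S
    induction S using Finset.induction_on with
    | empty =>
      have : (fun t => if t ∈ (∅ : Finset κ) then b.1 t * b.1 t else 1, (1 : A')) = 1 := by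
        refine Prod.ext ?_ rfl
        funext t
        simp
      rw [this, map_one]
      exact Subgroup.one_mem _
    | insert i S hi ih =>
      have h1 : ((fun t => if t ∈ insert i S then b.1 t * b.1 t else 1), (1 : A')) =
          (fun t => if t ∈ S then b.1 t * b.1 t else 1, 1) * (Pi.mulSingle i (b.1 i * b.1 i), 1) := by
        refine Prod.ext ?_ (by simp)
        funext t
        simp only [Prod.mk_mul_mk, Pi.mul_apply, Finset.mem_insert]
        by_cases hti : t = i
        · subst hti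
          simp [hi]
        · simp [hti]
      rw [h1, map_mul]
      refine Subgroup.mul_mem _ ih ?_
      rcases hdich (b.1 i) with h | h
      · rw [h]
        have : ((Pi.mulSingle i (1 : A) : κ → A), (1 : A')) = 1 := by
          refine Prod.ext ?_ rfl
          simp
        rw [this, map_one]
        exact Subgroup.one_mem _
      · -- pick `j`, `l`
        have hcard : 1 < (Finset.univ.erase i).card := by
          rw [Finset.card_erase_of_mem (Finset.mem_univ i), Finset.card_univ]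
          omega
        obtain ⟨j, hj, l, hl, hjl⟩ := Finset.one_lt_card.mp hcard
        have hij : i ≠ j := (Finset.ne_of_mem_erase hj).symm
        have hil : i ≠ l := (Finset.ne_of_mem_erase hl).symm
        exact single_sq_mem hs hconj hr h hij hil hjl
  have h := hstep Finset.univ
  have h2 : ((fun t => if t ∈ (Finset.univ : Finset κ) then b.1 t * b.1 t else 1), (1 : A')) = b * b := by
    refine Prod.ext ?_ ?_
    · funext t; simp
    · simp [hE]
  rwa [h2] at h

/-- The main identity: squares lie in the derived subgroup of `wr ⊓ Ω`. -/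
theorem sqIn_wr [Fintype κ] (hconj : ∀ π b, s π * β b * (s π)⁻¹ = β (act π b))
    {r₀ : A} (hr : r₀ * r₀ = 1) (hdich : ∀ d : A, d * d = 1 ∨ r₀ * d * r₀⁻¹ = d⁻¹)
    (hE : ∀ e : A', e * e = 1) (hκ : 3 ≤ Fintype.card κ)
    (hT : ∀ π ∈ T, π ^ 2 ∈ ⁅T, T⁆) : SqIn (wr β s hconj T ⊓ commutator G) := by
  rintro x ⟨⟨b, π, hπ, rfl⟩, hx⟩
  set R := wr β s hconj T ⊓ commutator G with hR
  have hz : s π ∈ R := ⟨s_mem_wr hπ, hs π⟩
  have hy : β b ∈ R := by
    refine ⟨beta_mem_wr _, ?_⟩
    have : β b = (β b * s π) * (s π)⁻¹ := by group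
    rw [this]
    exact (commutator G).mul_mem hx ((commutator G).inv_mem (hs π))
  have h1 : (β b * s π) ^ 2 = β (b * b) * ⁅(β b)⁻¹, s π⁆ * s (π ^ 2) := by
    rw [map_mul, map_pow, commutatorElement_def]
    simp only [pow_two, mul_assoc, mul_inv_cancel_left, inv_mul_cancel_left, inv_inv]
  rw [h1]
  refine Subgroup.mul_mem _ (Subgroup.mul_mem _ (beta_sq_mem hs hconj hr hdich hE hκ b) ?_) ?_
  · exact commutator_mem_commutator (R.inv_mem hy) hz
  · have h2 : T.map s ≤ R := by
      rintro _ ⟨π', hπ', rfl⟩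
      exact ⟨s_mem_wr hπ', hs π'⟩
    have h3 : s (π ^ 2) ∈ (⁅T, T⁆).map s := ⟨_, hT π hπ, rfl⟩
    rw [map_commutator] at h3
    exact commutator_mono h2 h2 h3

omit hs

/-- Cardinality of `wr`. -/
theorem card_wr (hconj : ∀ π b, s π * β b * (s π)⁻¹ = β (act π b))
    (hinj : ∀ b b' π π', β b * s π = β b' * s π' → b = b' ∧ π = π') :
    Nat.card (wr β s hconj T) = Nat.card ((κ → A) × A') * Nat.card T := by
  rw [← Nat.card_prod]
  symm
  apply Nat.card_congr
  refine Equiv.ofBijective (fun p => ⟨β p.1 * s p.2, p.1, p.2, p.2.2, rfl⟩) ⟨?_, ?_⟩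
  · rintro ⟨b, π⟩ ⟨b', π'⟩ h
    have h1 := congrArg Subtype.val h
    obtain ⟨h2, h3⟩ := hinj _ _ _ _ h1
    exact Prod.ext h2 (Subtype.ext h3)
  · rintro ⟨_, b, π, hπ, rfl⟩
    exact ⟨(b, ⟨π, hπ⟩), rfl⟩

/-- The abstract main theorem. -/
theorem sq_main [Fintype κ] [Finite G] [Finite A] [Finite A']
    (hconj : ∀ π b, s π * β b * (s π)⁻¹ = β (act π b))
    (hs : ∀ π, s π ∈ commutator G)
    (hinj : ∀ b b' π π', β b * s π = β b' * s π' → b = b' ∧ π = π')
    {r₀ : A} (hr : r₀ * r₀ = 1) (hdich : ∀ d : A, d * d = 1 ∨ r₀ * d * r₀⁻¹ = d⁻¹)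
    (hE : ∀ e : A', e * e = 1) (hκ : 3 ≤ Fintype.card κ)
    (hT : ∀ π ∈ T, π ^ 2 ∈ ⁅T, T⁆)
    (hcard : Nat.card ((κ → A) × A') * Nat.card T = 2 ^ (Nat.card G).factorization 2)
    (P : Sylow 2 (commutator G)) : SqD P := by
  have hc : Nat.card (wr β s hconj T) = 2 ^ (Nat.card G).factorization 2 := by
    rw [card_wr hconj hinj, hcard]
  exact sqD_of_sylow (Sylow.ofCard _ hc) (sqIn_wr hs hconj hr hdich hE hκ hT) P

end Wreath

end Cfsg.Agent.Lib.Char.SylowSq.Core
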