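import Mathlib
import Cfsg.Agent.Lib.Classical.Witt.Disc
import Cfsg.Agent.Lib.Char.SylowSq.Core

/-!
# Classification of nondegenerate quadratic forms over finite fields of odd order, by discriminant

and the resulting isomorphisms of isometry groups.
-/

set_option autoImplicit false
set_option linter.unusedSectionVars false

namespace Cfsg.Agent.Lib.Char.SylowSq.Form

open QuadraticMap Module Matrix Cfsg.Agent.Lib.Classical.Witt.Hyp Cfsg.Agent.Lib.Classical.Witt.Disc
open Cfsg.Agent.Lib.Linalg.OrthOrder Cfsg.Agent.Lib.Linalg.OrthModels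

universe u

variable {F : Type u} [Field F]

theorem two_ne_zero_of_odd [Fintype F] (hF : Odd (Fintype.card F)) : (2 : F) ≠ 0 := by
  apply Ring.two_ne_zero
  intro h
  have := FiniteField.even_card_iff_char_two.mp h
  rw [Nat.odd_iff] at hF
  omega

/-- The diagonal form with unit weights. -/
noncomputable abbrev WS {X : Type*} [Fintype X] (w : X → Fˣ) : QuadraticForm F (X → F) :=
  weightedSumSquares F w

theorem WS_apply {X : Type*} [Fintype X] (w : X → Fˣ) (v : X → F) :
    WS w v = ∑ t, (w t : F) * (v t * v t) := by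
  rw [weightedSumSquares_apply]
  exact Finset.sum_congr rfl fun t _ => by rw [Units.smul_def, smul_eq_mul]

theorem exists_sum_sq [Fintype F] (hF : Odd (Fintype.card F)) {a b : F} (ha : a ≠ 0) (hb : b ≠ 0) :
    ∃ x y : F, a * x ^ 2 + b * y ^ 2 = 1 := by
  open Polynomial in
  obtain ⟨x, y, h⟩ := FiniteField.exists_root_sum_quadratic (R := F)
    (f := C a * X ^ 2 + C 0 * X + C 0) (g := C b * X ^ 2 + C 0 * X + C (-1))
    (degree_quadratic ha) (degree_quadratic hb) (Nat.odd_iff.mp hF)
  refine ⟨x, y, ?_⟩
  simp only [eval_add, eval_mul, eval_C, eval_pow, eval_X] at h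
  linear_combination h

/-- Reindexing a diagonal form. -/
theorem WS_reindex {X Y : Type*} [Fintype X] [Fintype Y] (e : Y ≃ X) (w : X → Fˣ) :
    (WS w).Equivalent (WS (w ∘ e)) := by
  refine ⟨{ LinearEquiv.funCongrLeft F F e with map_app' := ?_ }⟩
  intro v
  simp only [LinearEquiv.toFun_eq_coe]
  rw [WS_apply, WS_apply]
  exact Equiv.sum_comp e (fun t => (w t : F) * (v t * v t))

/-- The binary step: `⟨a, b⟩ ≅ ⟨1, ab⟩` in coordinates `i, j`. -/
theorem WS_step [Fintype F] (hF : Odd (Fintype.card F)) {X : Type*} [Fintype X] [DecidableEq X]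
    (w : X → Fˣ) {i j : X} (hij : i ≠ j) :
    (WS w).Equivalent (WS (Function.update (Function.update w i 1) j (w i * w j))) := by
  obtain ⟨x₀, y₀, h⟩ := exists_sum_sq hF (w i).ne_zero (w j).ne_zero
  set a : F := (w i : F) with ha
  set b : F := (w j : F) with hb
  let f : (X → F) →ₗ[F] (X → F) :=
    { toFun := fun v t => if t = i then a * x₀ * v i + b * y₀ * v j
        else if t = j then - y₀ * v i + x₀ * v j else v t
      map_add' := by
        intro u v; funext t
        by_cases h1 : t = i
        · simp only [h1, if_true, Pi.add_apply]; ring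
        · by_cases h2 : t = j
          · simp only [h2, if_neg hij.symm, if_true, Pi.add_apply]; ring
          · simp [h1, h2]
      map_smul' := by
        intro c v; funext t
        by_cases h1 : t = i
        · simp only [h1, if_true, Pi.smul_apply, smul_eq_mul, RingHom.id_apply]; ring
        · by_cases h2 : t = j
          · simp only [h2, if_neg hij.symm, if_true, Pi.smul_apply, smul_eq_mul, RingHom.id_apply]; ring
          · simp [h1, h2] }
  let g : (X → F) →ₗ[F] (X → F) :=
    { toFun := fun v t => if t = i then x₀ * v i - b * y₀ * v j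
        else if t = j then y₀ * v i + a * x₀ * v j else v t
      map_add' := by
        intro u v; funext t
        by_cases h1 : t = i
        · simp only [h1, if_true, Pi.add_apply]; ring
        · by_cases h2 : t = j
          · simp only [h2, if_neg hij.symm, if_true, Pi.add_apply]; ring
          · simp [h1, h2]
      map_smul' := by
        intro c v; funext t
        by_cases h1 : t = i
        · simp only [h1, if_true, Pi.smul_apply, smul_eq_mul, RingHom.id_apply]; ring
        · by_cases h2 : t = j
          · simp only [h2, if_neg hij.symm, if_true, Pi.smul_apply, smul_eq_mul, RingHom.id_apply]; ring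
          · simp [h1, h2] }
  have fi : ∀ v, f v i = a * x₀ * v i + b * y₀ * v j := fun v => by
    show (if i = i then _ else _) = _
    rw [if_pos rfl]
  have fj : ∀ v, f v j = - y₀ * v i + x₀ * v j := fun v => by
    show (if j = i then _ else if j = j then _ else _) = _
    rw [if_neg hij.symm, if_pos rfl]
  have ft : ∀ v t, t ≠ i → t ≠ j → f v t = v t := fun v t h1 h2 => by
    show (if t = i then _ else if t = j then _ else _) = _
    rw [if_neg h1, if_neg h2]
  have gi : ∀ v, g v i = x₀ * v i - b * y₀ * v j := fun v => by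
    show (if i = i then _ else _) = _
    rw [if_pos rfl]
  have gj : ∀ v, g v j = y₀ * v i + a * x₀ * v j := fun v => by
    show (if j = i then _ else if j = j then _ else _) = _
    rw [if_neg hij.symm, if_pos rfl]
  have gt : ∀ v t, t ≠ i → t ≠ j → g v t = v t := fun v t h1 h2 => by
    show (if t = i then _ else if t = j then _ else _) = _
    rw [if_neg h1, if_neg h2]
  have hgf : ∀ v, g (f v) = v := by
    intro v; funext t
    by_cases h1 : t = i
    · subst h1
      rw [gi, fi, fj]
      linear_combination (v t) * h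
    · by_cases h2 : t = j
      · subst h2
        rw [gj, fi, fj]
        linear_combination (v t) * h
      · rw [gt _ _ h1 h2, ft _ _ h1 h2]
  have hfg : ∀ v, f (g v) = v := by
    intro v; funext t
    by_cases h1 : t = i
    · subst h1
      rw [fi, gi, gj]
      linear_combination (v t) * h
    · by_cases h2 : t = j
      · subst h2
        rw [fj, gi, gj]
        linear_combination (v t) * h
      · rw [ft _ _ h1 h2, gt _ _ h1 h2]
  let L : (X → F) ≃ₗ[F] (X → F) := { f with invFun := g, left_inv := hgf, right_inv := hfg }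
  refine ⟨{ L with map_app' := ?_ }⟩
  intro v
  show WS _ (f v) = WS w v
  rw [WS_apply, WS_apply, ← sub_eq_zero, ← Finset.sum_sub_distrib]
  rw [Fintype.sum_eq_add i j hij]
  · have e1 : (Function.update (Function.update w i 1) j (w i * w j)) i = 1 := by
      rw [Function.update_of_ne hij, Function.update_self]
    have e2 : (Function.update (Function.update w i 1) j (w i * w j)) j = w i * w j :=
      Function.update_self _ _ _
    rw [e1, e2, fi, fj, Units.val_one, Units.val_mul, ← ha, ← hb]
    linear_combination (a * (v i) ^ 2 + b * (v j) ^ 2) * h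
  · rintro t ⟨h1, h2⟩
    simp only [Function.update_apply, if_neg h1, if_neg h2]
    rw [ft _ _ h1 h2]
    ring

/-- Normal form: all weights but one equal to `1`. -/
theorem exists_normal [Fintype F] (hF : Odd (Fintype.card F)) {X : Type*} [Fintype X] [DecidableEq X]
    (x₀ : X) (w : X → Fˣ) : ∃ d : Fˣ, (WS w).Equivalent (WS (Function.update (1 : X → Fˣ) x₀ d)) := by
  have key : ∀ (S : Finset X) (w : X → Fˣ), (∀ x, x ≠ x₀ → x ∉ S → w x = 1) →
      ∃ d : Fˣ, (WS w).Equivalent (WS (Function.update (1 : X → Fˣ) x₀ d)) := by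
    intro S
    induction S using Finset.induction_on with
    | empty =>
      intro w hw
      refine ⟨w x₀, ?_⟩
      have : w = Function.update (1 : X → Fˣ) x₀ (w x₀) := by
        funext x
        by_cases hx : x = x₀
        · subst hx; simp
        · rw [Function.update_of_ne hx]
          simpa using hw x hx (by simp)
      rw [← this]
    | insert i S hi ih =>
      intro w hw
      by_cases hix : i = x₀
      · apply ih w
        intro x hx hxS
        apply hw x hx
        simp only [Finset.mem_insert, not_or]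
        exact ⟨fun h => hx (h.trans hix), hxS⟩
      · obtain ⟨d, hd⟩ := ih (Function.update (Function.update w i 1) x₀ (w i * w x₀)) (by
          intro x hx hxS
          rw [Function.update_of_ne hx]
          by_cases hxi : x = i
          · subst hxi; simp
          · rw [Function.update_of_ne hxi]
            apply hw x hx
            simp only [Finset.mem_insert, not_or]
            exact ⟨hxi, hxS⟩)
        exact ⟨d, (WS_step hF w hix).trans hd⟩
  exact key Finset.univ w (fun x _ hx => absurd (Finset.mem_univ x) hx)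

/-- The polar form of a diagonal form. -/
theorem polar_WS {X : Type*} [Fintype X] (w : X → Fˣ) (u v : X → F) :
    polar (WS w) u v = ∑ t, 2 * (w t : F) * (u t * v t) := by
  simp only [polar, WS_apply, ← Finset.sum_sub_distrib, Pi.add_apply]
  exact Finset.sum_congr rfl fun t _ => by ring

/-- The Gram determinant of a diagonal form. -/
theorem det_gram_WS {X : Type*} [Fintype X] [DecidableEq X] (w : X → Fˣ) :
    (Matrix.of fun i j : X => polar (WS w) (Pi.basisFun F X i) (Pi.basisFun F X j)).det =
      ∏ t, (2 * (w t : F)) := by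
  have : (Matrix.of fun i j : X => polar (WS w) (Pi.basisFun F X i) (Pi.basisFun F X j)) =
      Matrix.diagonal (fun t => 2 * (w t : F)) := by
    ext i j
    simp only [Matrix.of_apply, polar_WS, Pi.basisFun_apply, Matrix.diagonal_apply]
    by_cases hij : i = j
    · subst hij
      rw [if_pos rfl, Finset.sum_eq_single i]
      · simp
      · intro t _ ht
        simp [Pi.single_apply, ht]
      · simp
    · rw [if_neg hij]
      apply Finset.sum_eq_zero
      intro t _
      by_cases ht : t = i
      · subst ht
        simp [Pi.single_apply, hij]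
      · simp [Pi.single_apply, ht]
  rw [this, Matrix.det_diagonal]

/-- Gram determinants via an isometry. -/
theorem det_gram_of_equivalent {V V' : Type*} [AddCommGroup V] [Module F V] [AddCommGroup V'] [Module F V']
    {Q : QuadraticForm F V} {Q' : QuadraticForm F V'} (φ : Q.IsometryEquiv Q')
    {ι κ : Type*} [Fintype ι] [DecidableEq ι] [Fintype κ] [DecidableEq κ]
    (b : Basis ι F V) (b' : Basis κ F V') :
    ∃ u : F, u ≠ 0 ∧ (Matrix.of fun i j => polar Q (b i) (b j)).det =
      u ^ 2 * (Matrix.of fun i j => polar Q' (b' i) (b' j)).det := by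
  obtain ⟨u, hu, h⟩ := det_gram_polar_change Q b (b'.map φ.toLinearEquiv.symm)
  refine ⟨u, hu, ?_⟩
  rw [h]
  congr 2
  ext i j
  simp only [Matrix.of_apply, Basis.map_apply, polar]
  have hφ : ∀ x, Q' x = Q (φ.toLinearEquiv.symm x) := fun x => by
    rw [← φ.map_app (φ.toLinearEquiv.symm x)]
    congr 1
    exact (φ.toLinearEquiv.apply_symm_apply x).symm
  have hadd : φ.toLinearEquiv.symm (b' i + b' j) = φ.toLinearEquiv.symm (b' i) + φ.toLinearEquiv.symm (b' j) :=
    map_add _ _ _
  rw [hφ, hφ (b' i), hφ (b' j), hadd]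

theorem isSquare_of_mul_sq {x y u v : F} (hu : u ≠ 0) (hv : v ≠ 0) (h : IsSquare (u ^ 2 * x * (v ^ 2 * y))) :
    IsSquare (x * y) := by
  have : u ^ 2 * x * (v ^ 2 * y) = (u * v) ^ 2 * (x * y) := by ring
  rw [this] at h
  exact (isSquare_sq_mul_iff (mul_ne_zero hu hv)).1 h

/-- Classification of nondegenerate forms by discriminant, against a diagonal form. -/
theorem equivalent_WS [Fintype F] (hF : Odd (Fintype.card F)) {V : Type*} [AddCommGroup V] [Module F V]
    [FiniteDimensional F V] {Q : QuadraticForm F V} (hQ : PolarNondeg Q)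
    {X : Type} [Fintype X] [DecidableEq X] (hX : finrank F V = Fintype.card X) (x₀ : X) (w : X → Fˣ)
    {ι : Type*} [Fintype ι] [DecidableEq ι] (b : Basis ι F V)
    (hd : IsSquare ((Matrix.of fun i j => polar Q (b i) (b j)).det * ∏ t, (2 * (w t : F)))) :
    Q.Equivalent (WS w) := by
  have h2 : (2 : F) ≠ 0 := two_ne_zero_of_odd hF
  letI : Invertible (2 : F) := invertibleOfNonzero h2
  have hsep : (associated (R := F) Q).SeparatingLeft := by
    intro x hx
    apply hQ
    intro y
    have h4 : ((2 : ℕ) • associated (R := F) Q) x y = polarBilin Q x y := by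
      rw [QuadraticMap.two_nsmul_associated F Q]
    have h5 : polar Q x y = (2 : ℕ) • associated (R := F) Q x y := h4.symm
    rw [h5, hx y, smul_zero]
  obtain ⟨w₁, hw₁⟩ := QuadraticForm.equivalent_weightedSumSquares_units_of_nondegenerate' Q hsep
  let e : X ≃ Fin (finrank F V) := Fintype.equivFinOfCardEq hX.symm
  have h1 : Q.Equivalent (WS (w₁ ∘ e)) := hw₁.trans (WS_reindex e w₁)
  obtain ⟨d₁, hd₁⟩ := exists_normal hF x₀ (w₁ ∘ e)
  obtain ⟨d₂, hd₂⟩ := exists_normal hF x₀ w
  have h3 : Q.Equivalent (WS (Function.update (1 : X → Fˣ) x₀ d₁)) := h1.trans hd₁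
  obtain ⟨φ⟩ := id h3
  obtain ⟨ψ⟩ := id hd₂
  obtain ⟨u, hu, hU⟩ := det_gram_of_equivalent φ b (Pi.basisFun F X)
  obtain ⟨v, hv, hV⟩ := det_gram_of_equivalent ψ (Pi.basisFun F X) (Pi.basisFun F X)
  rw [det_gram_WS] at hU hV
  rw [det_gram_WS] at hV
  have hprod : ∀ d : Fˣ, ∏ t, (2 * ((Function.update (1 : X → Fˣ) x₀ d t : Fˣ) : F)) =
      2 ^ Fintype.card X * (d : F) := by
    intro d
    rw [Finset.prod_mul_distrib, Finset.prod_const, Finset.card_univ]
    congr 1
    rw [Finset.prod_eq_single x₀]
    · simp
    · intro t _ ht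
      simp [Function.update_of_ne ht]
    · simp
  rw [hprod] at hU hV
  rw [hU, hV] at hd
  have hdd : IsSquare ((d₁ : F) * (d₂ : F)) := by
    have h4 : u ^ 2 * (2 ^ Fintype.card X * (d₁ : F)) * (v ^ 2 * (2 ^ Fintype.card X * (d₂ : F))) =
        (u * v * 2 ^ Fintype.card X) ^ 2 * ((d₁ : F) * (d₂ : F)) := by ring
    rw [h4] at hd
    exact (isSquare_sq_mul_iff (mul_ne_zero (mul_ne_zero hu hv) (pow_ne_zero _ h2))).1 hd
  obtain ⟨s, hs⟩ := hdd
  have hs0 : s ≠ 0 := by
    rintro rfl
    have : (d₁ : F) * (d₂ : F) ≠ 0 := mul_ne_zero d₁.ne_zero d₂.ne_zero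
    exact this (by rw [hs]; ring)
  -- the scaling factor `s / d₂`
  let c : Fˣ := Units.mk0 (s / d₂) (div_ne_zero hs0 d₂.ne_zero)
  have hc : d₂ * c ^ 2 = d₁ := by
    apply Units.ext
    simp only [Units.val_mul, Units.val_pow_eq_pow_val, c, Units.val_mk0]
    have hd2 : (d₂ : F) ≠ 0 := d₂.ne_zero
    field_simp
    linear_combination -hs
  have h5 : (WS (Function.update (1 : X → Fˣ) x₀ d₁)).Equivalent (WS (Function.update (1 : X → Fˣ) x₀ d₂)) := by
    refine ⟨QuadraticForm.isometryEquivWeightedSumSquaresWeightedSumSquares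
      (fun i => toUnits (Function.update (1 : X → Fˣ) x₀ c i)) ?_⟩
    intro i
    by_cases hi : i = x₀
    · subst hi
      simp only [Function.update_self]
      simpa using hc
    · simp [Function.update_of_ne hi]
  exact h3.trans (h5.trans hd₂.symm)

/-- Isometric forms have isomorphic isometry groups. -/
def orthEquiv {V V' : Type*} [AddCommGroup V] [Module F V] [AddCommGroup V'] [Module F V']
    {Q : QuadraticForm F V} {Q' : QuadraticForm F V'} (φ : Q.IsometryEquiv Q') :
    orthGroup Q ≃* orthGroup Q' where
  toFun g := ⟨φ.toLinearEquiv.symm.trans (g.1.trans φ.toLinearEquiv), fun v => by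
    have h1 := φ.map_app (g.1 (φ.toLinearEquiv.symm v))
    have h2 := φ.map_app (φ.toLinearEquiv.symm v)
    have h3 : φ (φ.toLinearEquiv.symm v) = v := φ.toLinearEquiv.apply_symm_apply v
    rw [h3] at h2
    show Q' (φ (g.1 (φ.toLinearEquiv.symm v))) = Q' v
    rw [h1, g.2, ← h2]⟩
  invFun g := ⟨φ.toLinearEquiv.trans (g.1.trans φ.toLinearEquiv.symm), fun v => by
    have h1 := φ.map_app (φ.toLinearEquiv.symm (g.1 (φ.toLinearEquiv v)))
    have h3 : φ (φ.toLinearEquiv.symm (g.1 (φ.toLinearEquiv v))) = g.1 (φ.toLinearEquiv v) :=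
      φ.toLinearEquiv.apply_symm_apply _
    rw [h3] at h1
    show Q (φ.toLinearEquiv.symm (g.1 (φ.toLinearEquiv v))) = Q v
    rw [← h1, g.2]
    exact φ.map_app v⟩
  left_inv g := by
    apply Subtype.ext
    ext v
    simp
  right_inv g := by
    apply Subtype.ext
    ext v
    simp
  map_mul' g h := by
    apply Subtype.ext
    ext v
    simp [LinearEquiv.mul_apply]

/-- The matrix isometry group versus `orthGroup`. -/
noncomputable def isoOrth {ι : Type} [Fintype ι] [DecidableEq ι] (Q : QuadraticForm F (ι → F)) :
    Cfsg.isometryGroup F (⇑Q) ≃* orthGroup Q := by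
  let Φ : Matrix.GeneralLinearGroup ι F ≃* ((ι → F) ≃ₗ[F] (ι → F)) :=
    Matrix.GeneralLinearGroup.toLin.trans (LinearMap.GeneralLinearGroup.generalLinearEquiv F (ι → F))
  have hΦ : ∀ (g : Matrix.GeneralLinearGroup ι F) (x : ι → F), Φ g x = (g : Matrix ι ι F).mulVec x := by
    intro g x
    rfl
  refine (Φ.subgroupMap _).trans (MulEquiv.subgroupCongr ?_)
  ext g
  constructor
  · rintro ⟨h, hh, rfl⟩
    intro v
    show Q (Φ h v) = Q v
    rw [hΦ]
    exact hh v 0
  · intro hg
    refine ⟨Φ.symm g, ?_, by simp⟩
    intro u v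
    have h1 := hg u
    have h2 : Φ (Φ.symm g) u = g u := by simp
    rw [hΦ] at h2
    show Q ((Φ.symm g : Matrix.GeneralLinearGroup ι F).val.mulVec u) = Q u
    rw [h2]
    exact h1

open Cfsg.Agent.Lib.Char.SylowSq.Core in
/-- Transfer of the property along a group isomorphism. -/
theorem sqAll_of_equiv {G G' : Type*} [Group G] [Group G'] [Finite G] (e : G ≃* G')
    (h : ∀ P : Sylow 2 (commutator G'), SqD P) (P : Sylow 2 (commutator G)) : SqD P := by
  have hmap : (commutator G).map e.toMonoidHom = commutator G' := by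
    rw [_root_.commutator_def, _root_.commutator_def, Subgroup.map_commutator,
      Subgroup.map_top_of_surjective _ e.surjective]
  let e' : commutator G ≃* commutator G' :=
    (e.subgroupMap (commutator G)).trans (MulEquiv.subgroupCongr hmap)
  have : Finite (commutator G) := inferInstance
  let P' : Sylow 2 (commutator G') := P.mapSurjective (f := e'.toMonoidHom) e'.surjective
  have h1 := h P'
  have h2 : (P' : Subgroup (commutator G')) = (P : Subgroup (commutator G)).map e'.toMonoidHom :=
    Sylow.coe_mapSurjective _ _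
  have h3 : SqD ((P : Subgroup (commutator G)).map e'.toMonoidHom) := by
    rw [← h2]
    exact h1
  exact SqD.of_equiv (e'.subgroupMap (P : Subgroup (commutator G))) h3

end Cfsg.Agent.Lib.Char.SylowSq.Form
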