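import Mathlib
import Cfsg.Agent.Lib.Char.SylowSq.Form
import Cfsg.Agent.S4623

/-!
# The sum-of-squares model: `O₂ ≀ S_k × {±1}^E` inside the orthogonal group
-/

set_option autoImplicit false
set_option linter.unusedSectionVars false

namespace Cfsg.Agent.Lib.Char.SylowSq.Model

open QuadraticMap Module Cfsg.Agent.Lib.Classical.Witt.Hyp
open Cfsg.Agent.Lib.Linalg.OrthOrder Cfsg.Agent.Lib.Char.SylowSq.Core Cfsg.Agent.Lib.Char.SylowSq.Form
open scoped commutatorElement

universe u

variable {F : Type u} [Field F]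

/-- The form `x² + y²` on the plane. -/
noncomputable def q2 (F : Type u) [Field F] : QuadraticForm F (Fin 2 → F) := WS (1 : Fin 2 → Fˣ)

theorem q2_apply (v : Fin 2 → F) : q2 F v = v 0 * v 0 + v 1 * v 1 := by
  rw [q2, WS_apply, Fin.sum_univ_two]
  simp

variable (κ E : Type) [Fintype κ] [DecidableEq κ] [Fintype E] [DecidableEq E]

/-- The model space. -/
abbrev MV (F : Type u) := (κ → Fin 2 → F) × (E → F)

variable {κ E}

/-- The model form. -/
noncomputable def QV (κ : Type) [Fintype κ] {E : Type} [Fintype E] (w : E → Fˣ) : QuadraticForm F (MV κ E F) :=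
  (QuadraticMap.pi (fun _ : κ => q2 F)).prod (WS w)

theorem QV_apply (w : E → Fˣ) (v : MV κ E F) :
    QV κ w v = ∑ i, (v.1 i 0 * v.1 i 0 + v.1 i 1 * v.1 i 1) + ∑ j, (w j : F) * (v.2 j * v.2 j) := by
  simp only [QV, QuadraticMap.prod_apply, QuadraticMap.pi_apply, q2_apply, WS_apply]

/-- The model form in coordinates on pairs. -/
theorem QV_apply' (w : E → Fˣ) (v : MV κ E F) :
    QV κ w v = ∑ x : κ × Fin 2, (v.1 x.1 x.2 * v.1 x.1 x.2) + ∑ j, (w j : F) * (v.2 j * v.2 j) := by
  rw [QV_apply, Fintype.sum_prod_type]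
  simp only [Fin.sum_univ_two]

/-- Sign as a unit of `F`. -/
noncomputable def sgn (e : ℤˣ) : Fˣ := Units.map (Int.castRingHom F).toMonoidHom e

theorem sgn_mul (e e' : ℤˣ) : (sgn (e * e') : Fˣ) = sgn e * sgn e' := map_mul _ _ _

theorem sgn_one : (sgn (1 : ℤˣ) : Fˣ) = 1 := map_one _

theorem sgn_sq (e : ℤˣ) : ((sgn e : Fˣ) : F) * (sgn e : Fˣ) = 1 := by
  rw [← Units.val_mul, ← sgn_mul, Int.units_mul_self, sgn_one, Units.val_one]

/-- The block-diagonal map. -/
noncomputable def baseE (a : κ → ((Fin 2 → F) ≃ₗ[F] (Fin 2 → F))) (ε : E → ℤˣ) : MV κ E F ≃ₗ[F] MV κ E F :=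
  (LinearEquiv.piCongrRight a).prodCongr
    (LinearEquiv.piCongrRight fun j => LinearEquiv.smulOfUnit (sgn (ε j)))

@[simp] theorem baseE_fst (a : κ → ((Fin 2 → F) ≃ₗ[F] (Fin 2 → F))) (ε : E → ℤˣ) (v : MV κ E F) (i : κ) :
    (baseE a ε v).1 i = a i (v.1 i) := rfl

theorem baseE_snd (a : κ → ((Fin 2 → F) ≃ₗ[F] (Fin 2 → F))) (ε : E → ℤˣ) (v : MV κ E F) (j : E) :
    (baseE a ε v).2 j = ((sgn (ε j) : Fˣ) : F) * v.2 j := rfl

theorem baseE_mem (w : E → Fˣ) {a : κ → ((Fin 2 → F) ≃ₗ[F] (Fin 2 → F))} (ha : ∀ i, a i ∈ orthGroup (q2 F))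
    (ε : E → ℤˣ) : baseE a ε ∈ orthGroup (QV κ w) := by
  intro v
  simp only [QV, QuadraticMap.prod_apply, QuadraticMap.pi_apply, WS_apply, baseE_fst, baseE_snd]
  congr 1
  · exact Finset.sum_congr rfl fun i _ => ha i _
  · refine Finset.sum_congr rfl fun j _ => ?_
    have := sgn_sq (F := F) (ε j)
    linear_combination ((w j : F) * (v.2 j * v.2 j)) * this

/-- Coordinate permutations of the planes. -/
def coordE (ρ : Equiv.Perm (κ × Fin 2)) : MV κ E F ≃ₗ[F] MV κ E F where
  toFun v := (fun i t => v.1 (ρ⁻¹ (i, t)).1 (ρ⁻¹ (i, t)).2, v.2)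
  invFun v := (fun i t => v.1 (ρ (i, t)).1 (ρ (i, t)).2, v.2)
  map_add' u v := rfl
  map_smul' c v := rfl
  left_inv v := by
    refine Prod.ext ?_ rfl
    funext i t
    simp
  right_inv v := by
    refine Prod.ext ?_ rfl
    funext i t
    simp

theorem coordE_fst (ρ : Equiv.Perm (κ × Fin 2)) (v : MV κ E F) (i : κ) (t : Fin 2) :
    (coordE ρ v).1 i t = v.1 (ρ⁻¹ (i, t)).1 (ρ⁻¹ (i, t)).2 := rfl

theorem coordE_snd (ρ : Equiv.Perm (κ × Fin 2)) (v : MV κ E F) : (coordE ρ v).2 = v.2 := rfl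

theorem coordE_mem (w : E → Fˣ) (ρ : Equiv.Perm (κ × Fin 2)) : coordE ρ ∈ orthGroup (QV κ w) := by
  intro v
  rw [QV_apply', QV_apply']
  congr 1
  exact Equiv.sum_comp ρ⁻¹ (fun x : κ × Fin 2 => v.1 x.1 x.2 * v.1 x.1 x.2)

/-- Coordinate permutations, as a homomorphism. -/
noncomputable def coord (w : E → Fˣ) : Equiv.Perm (κ × Fin 2) →* orthGroup (QV κ w) where
  toFun ρ := ⟨coordE ρ, coordE_mem w ρ⟩
  map_one' := by
    apply Subtype.ext
    ext v : 1
    rfl
  map_mul' ρ ρ' := by
    apply Subtype.ext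
    apply LinearEquiv.ext
    intro v
    refine Prod.ext ?_ rfl
    funext i t
    rfl

/-- Permuting the planes. -/
def permHom : Equiv.Perm κ →* Equiv.Perm (κ × Fin 2) where
  toFun π := Equiv.prodCongr π (Equiv.refl _)
  map_one' := by ext x <;> rfl
  map_mul' π π' := by ext x <;> rfl

/-- Permutations of the planes in the orthogonal group. -/
noncomputable def sM (w : E → Fˣ) : Equiv.Perm κ →* orthGroup (QV κ w) := (coord w).comp permHom

theorem sM_fst (w : E → Fˣ) (π : Equiv.Perm κ) (v : MV κ E F) (i : κ) :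
    ((sM w π).1 v).1 i = v.1 (π⁻¹ i) := by
  funext t
  rfl

theorem sM_snd (w : E → Fˣ) (π : Equiv.Perm κ) (v : MV κ E F) :
    ((sM w π).1 v).2 = v.2 := rfl

/-- The identity in the permutation group. -/
theorem perm_comm {i j : κ} (hij : i ≠ j) :
    permHom (Equiv.swap i j) = ⁅Equiv.swap ((i, 0) : κ × Fin 2) (j, 0),
      Equiv.swap ((i, 0) : κ × Fin 2) (i, 1) * Equiv.swap ((j, 0) : κ × Fin 2) (j, 1)⁆ := by
  have hji : j ≠ i := hij.symm
  apply Equiv.ext
  rintro ⟨t, r⟩
  rw [commutatorElement_def]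
  simp only [permHom, MonoidHom.coe_mk, OneHom.coe_mk, Equiv.Perm.coe_mul, Function.comp_apply, mul_inv_rev,
    Equiv.swap_inv, Equiv.prodCongr_apply, Prod.map, Equiv.refl_apply]
  by_cases hti : t = i
  · subst hti
    fin_cases r <;> simp [Equiv.swap_apply_def, hij, hji]
  · by_cases htj : t = j
    · subst htj
      fin_cases r <;> simp [Equiv.swap_apply_def, hij, hji]
    · fin_cases r <;> simp [Equiv.swap_apply_def, hti, htj, hij, hji]

/-- Plane swaps lie in the derived subgroup. -/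
theorem sM_mem_commutator (w : E → Fˣ) (π : Equiv.Perm κ) : sM w π ∈ commutator (orthGroup (QV κ w)) := by
  induction π using Equiv.Perm.swap_induction_on with
  | one => rw [map_one]; exact Subgroup.one_mem _
  | swap_mul π i j hij ih =>
    rw [map_mul]
    refine Subgroup.mul_mem _ ?_ ih
    show coord w (permHom (Equiv.swap i j)) ∈ _
    rw [perm_comm hij, map_commutatorElement, _root_.commutator_def]
    exact Subgroup.commutator_mem_commutator (Subgroup.mem_top _) (Subgroup.mem_top _)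

variable (D : Subgroup (orthGroup (q2 F)))

/-- The base group inside the orthogonal group. -/
noncomputable def betaM (w : E → Fˣ) : (κ → D) × (E → ℤˣ) →* orthGroup (QV κ w) where
  toFun b := ⟨baseE (fun i => (b.1 i).1.1) b.2, baseE_mem w (fun i => (b.1 i).1.2) b.2⟩
  map_one' := by
    apply Subtype.ext
    apply LinearEquiv.ext
    intro v
    refine Prod.ext ?_ ?_
    · rfl
    · funext j
      show ((sgn (1 : ℤˣ) : Fˣ) : F) * v.2 j = v.2 j
      rw [sgn_one, Units.val_one, one_mul]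
  map_mul' b b' := by
    apply Subtype.ext
    apply LinearEquiv.ext
    intro v
    refine Prod.ext ?_ ?_
    · rfl
    · funext j
      show ((sgn (b.2 j * b'.2 j) : Fˣ) : F) * v.2 j = ((sgn (b.2 j) : Fˣ) : F) * (((sgn (b'.2 j) : Fˣ) : F) * v.2 j)
      rw [sgn_mul, Units.val_mul, mul_assoc]

theorem betaM_fst (w : E → Fˣ) (b : (κ → D) × (E → ℤˣ)) (v : MV κ E F) (i : κ) :
    ((betaM D w b).1 v).1 i = (b.1 i).1.1 (v.1 i) := rfl

theorem betaM_snd (w : E → Fˣ) (b : (κ → D) × (E → ℤˣ)) (v : MV κ E F) (j : E) :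
    ((betaM D w b).1 v).2 j = ((sgn (b.2 j) : Fˣ) : F) * v.2 j := rfl

theorem hconjM (w : E → Fˣ) (π : Equiv.Perm κ) (b : (κ → D) × (E → ℤˣ)) :
    sM w π * betaM D w b * (sM w π)⁻¹ = betaM D w (act π b) := by
  rw [mul_inv_eq_iff_eq_mul]
  apply Subtype.ext
  apply LinearEquiv.ext
  intro v
  refine Prod.ext ?_ ?_
  · funext i
    show ((sM w π).1 ((betaM D w b).1 v)).1 i = ((betaM D w (act π b)).1 ((sM w π).1 v)).1 i
    rw [sM_fst, betaM_fst, betaM_fst, sM_fst]
    rfl
  · funext j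
    rfl

theorem hinjM (h2 : (2 : F) ≠ 0) (w : E → Fˣ) (b b' : (κ → D) × (E → ℤˣ)) (π π' : Equiv.Perm κ)
    (h : betaM D w b * sM w π = betaM D w b' * sM w π') : b = b' ∧ π = π' := by
  have hv : ∀ v : MV κ E F, (betaM D w b).1 ((sM w π).1 v) = (betaM D w b').1 ((sM w π').1 v) := by
    intro v
    have := congrArg (fun g : orthGroup (QV κ w) => g.1 v) h
    exact this
  have hpi : π = π' := by
    by_contra hne
    have h3 : π⁻¹ ≠ π'⁻¹ := fun h4 => hne (inv_injective h4)
    obtain ⟨j, hj⟩ : ∃ j, π⁻¹ j ≠ π'⁻¹ j := by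
      by_contra h5
      push Not at h5
      exact h3 (Equiv.ext h5)
    let x₀ : Fin 2 → F := fun _ => 1
    have hx₀ : x₀ ≠ 0 := fun h6 => one_ne_zero (congrFun h6 0)
    have h7 := congrArg (fun u : MV κ E F => u.1 j) (hv (fun i => if i = π⁻¹ j then x₀ else 0, 0))
    simp only [betaM_fst, sM_fst, if_true, if_neg hj.symm, map_zero] at h7
    exact hx₀ ((LinearEquiv.map_eq_zero_iff _).1 h7)
  subst hpi
  refine ⟨Prod.ext ?_ ?_, rfl⟩
  · funext i
    apply Subtype.ext
    apply Subtype.ext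
    apply LinearEquiv.ext
    intro x
    have h7 := congrArg (fun u : MV κ E F => u.1 i) (hv (fun _ => x, 0))
    simpa only [betaM_fst, sM_fst] using h7
  · funext j
    have h7 := congrArg (fun u : MV κ E F => u.2 j) (hv (0, fun _ => 1))
    simp only [betaM_snd, sM_snd, mul_one] at h7
    have h1F : (1 : F) ≠ -1 := by
      intro h8
      apply h2
      linear_combination h8
    rcases Int.units_eq_one_or (b.2 j) with h9 | h9 <;> rcases Int.units_eq_one_or (b'.2 j) with h10 | h10
    · rw [h9, h10]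
    · exfalso
      rw [h9, h10] at h7
      simp [sgn] at h7
      exact h1F h7
    · exfalso
      rw [h9, h10] at h7
      simp [sgn] at h7
      exact h1F h7.symm
    · rw [h9, h10]

/-! ### The plane -/

/-- The reflection `diag(1, -1)`. -/
def r0L : (Fin 2 → F) ≃ₗ[F] (Fin 2 → F) where
  toFun v := ![v 0, - v 1]
  invFun v := ![v 0, - v 1]
  map_add' u v := by
    funext i
    fin_cases i <;> simp <;> ring
  map_smul' c v := by
    funext i
    fin_cases i <;> simp
  left_inv v := by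
    funext i
    fin_cases i <;> simp
  right_inv v := by
    funext i
    fin_cases i <;> simp

theorem r0L_zero (v : Fin 2 → F) : r0L v 0 = v 0 := rfl

theorem r0L_one (v : Fin 2 → F) : r0L v 1 = - v 1 := rfl

/-- The reflection `diag(1, -1)` in the orthogonal group. -/
def r0 : orthGroup (q2 F) := ⟨r0L, by
  intro v
  rw [q2_apply, q2_apply, r0L_zero, r0L_one]
  ring⟩

theorem r0_mul_self : (r0 : orthGroup (q2 F)) * r0 = 1 := by
  apply Subtype.ext
  apply LinearEquiv.ext
  intro v
  funext i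
  fin_cases i
  · rfl
  · show - (- v 1) = v 1
    ring

theorem r0_ne_one (h2 : (2 : F) ≠ 0) : (r0 : orthGroup (q2 F)) ≠ 1 := by
  intro h
  have h1 := congrArg (fun g : orthGroup (q2 F) => g.1 (fun _ => 1) 1) h
  have h3 : (-1 : F) = 1 := h1
  apply h2
  linear_combination -h3

/-- Matrix description of an isometry of the plane: rotation or reflection. -/
theorem orth_matrix (h2 : (2 : F) ≠ 0) (g : orthGroup (q2 F)) :
    ∃ a b : F, a * a + b * b = 1 ∧
      ((∀ v : Fin 2 → F, g.1 v 0 = a * v 0 + b * v 1 ∧ g.1 v 1 = - b * v 0 + a * v 1) ∨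
       (∀ v : Fin 2 → F, g.1 v 0 = a * v 0 + b * v 1 ∧ g.1 v 1 = b * v 0 - a * v 1)) := by
  let e₀ : Fin 2 → F := ![1, 0]
  let e₁ : Fin 2 → F := ![0, 1]
  have hv : ∀ v : Fin 2 → F, v = v 0 • e₀ + v 1 • e₁ := by
    intro v
    funext i
    fin_cases i <;> simp [e₀, e₁]
  set a : F := g.1 e₀ 0 with ha
  set c : F := g.1 e₀ 1 with hc
  set b : F := g.1 e₁ 0 with hb
  set d : F := g.1 e₁ 1 with hd
  have h1 : a * a + c * c = 1 := by
    have := g.2 e₀
    rw [q2_apply, q2_apply] at this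
    simpa [e₀] using this
  have h3 : b * b + d * d = 1 := by
    have := g.2 e₁
    rw [q2_apply, q2_apply] at this
    simpa [e₁] using this
  have h4 : a * b + c * d = 0 := by
    have := g.2 (e₀ + e₁)
    rw [q2_apply, q2_apply, map_add] at this
    simp only [Pi.add_apply, ← ha, ← hb, ← hc, ← hd] at this
    simp only [e₀, e₁, Matrix.cons_val_zero, Matrix.cons_val_one, add_zero, zero_add, mul_one] at this
    have h5 : 2 * (a * b + c * d) = 0 := by
      linear_combination this - h1 - h3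
    exact (mul_eq_zero.mp h5).resolve_left h2
  have hg : ∀ v : Fin 2 → F, g.1 v 0 = a * v 0 + b * v 1 ∧ g.1 v 1 = c * v 0 + d * v 1 := by
    intro v
    conv_lhs => rw [hv v]
    conv_rhs => rw [hv v]
    simp only [map_add, map_smul, Pi.add_apply, Pi.smul_apply, smul_eq_mul]
    simp only [← ha, ← hb, ← hc, ← hd, e₀, e₁]
    simp
    constructor <;> ring
  have hx : (a * d - b * c) * (a * d - b * c) = 1 := by
    linear_combination (b * b + d * d) * h1 + h3 - (a * b + c * d) * h4
  have hx' : (a * d - b * c - 1) * (a * d - b * c + 1) = 0 := by linear_combination hx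
  have hd' : d = a * (a * d - b * c) := by
    linear_combination (-d) * h1 + c * h4
  have hc' : c = - b * (a * d - b * c) := by
    linear_combination (-c) * h3 + d * h4
  rcases mul_eq_zero.mp hx' with hy | hy
  · have hy' : a * d - b * c = 1 := by linear_combination hy
    rw [hy'] at hd' hc'
    have e1 : d = a := by linear_combination hd'
    have e2 : c = - b := by linear_combination hc'
    refine ⟨a, b, ?_, Or.inl ?_⟩
    · rw [e2] at h1
      linear_combination h1
    · intro v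
      obtain ⟨h5, h6⟩ := hg v
      refine ⟨h5, ?_⟩
      rw [h6, e1, e2]
  · have hy' : a * d - b * c = -1 := by linear_combination hy
    rw [hy'] at hd' hc'
    have e1 : d = - a := by linear_combination hd'
    have e2 : c = b := by linear_combination hc'
    refine ⟨a, b, ?_, Or.inr ?_⟩
    · rw [e2] at h1
      linear_combination h1
    · intro v
      obtain ⟨h5, h6⟩ := hg v
      refine ⟨h5, ?_⟩
      rw [h6, e1, e2]
      ring

/-- Every isometry of the plane is an involution or inverted by `r₀`. -/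
theorem orth_dich (h2 : (2 : F) ≠ 0) (g : orthGroup (q2 F)) :
    g * g = 1 ∨ r0 * g * r0⁻¹ = g⁻¹ := by
  obtain ⟨a, b, hab, h | h⟩ := orth_matrix h2 g
  · right
    have hr : (r0 : orthGroup (q2 F))⁻¹ = r0 := inv_eq_of_mul_eq_one_left r0_mul_self
    rw [hr]
    apply eq_inv_of_mul_eq_one_left
    apply Subtype.ext
    apply LinearEquiv.ext
    intro v
    funext i
    show (r0L (g.1 (r0L (g.1 v)))) i = v i
    obtain ⟨h1, h2⟩ := h v
    obtain ⟨h3, h4⟩ := h (r0L (g.1 v))
    fin_cases i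
    · show (r0L (g.1 (r0L (g.1 v)))) 0 = v 0
      rw [r0L_zero, h3, r0L_zero, r0L_one, h1, h2]
      linear_combination (v 0) * hab
    · show (r0L (g.1 (r0L (g.1 v)))) 1 = v 1
      rw [r0L_one, h4, r0L_zero, r0L_one, h1, h2]
      linear_combination (v 1) * hab
  · left
    apply Subtype.ext
    apply LinearEquiv.ext
    intro v
    funext i
    show (g.1 (g.1 v)) i = v i
    obtain ⟨h1, h2⟩ := h v
    obtain ⟨h3, h4⟩ := h (g.1 v)
    fin_cases i
    · show (g.1 (g.1 v)) 0 = v 0
      rw [h3, h1, h2]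
      linear_combination (v 0) * hab
    · show (g.1 (g.1 v)) 1 = v 1
      rw [h4, h1, h2]
      linear_combination (v 1) * hab

end Cfsg.Agent.Lib.Char.SylowSq.Model
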