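import Mathlib
import Cfsg.Agent.Lib.Char.SylowSq.Model

/-!
# The main reduction: squares in Sylow `2`-subgroups of `Ω` for a form of given discriminant and order
-/

set_option autoImplicit false
set_option linter.unusedSectionVars false

namespace Cfsg.Agent.Lib.Char.SylowSq.Main

open QuadraticMap Module Cfsg.Agent.Lib.Classical.Witt.Hyp
open Cfsg.Agent.Lib.Linalg.OrthOrder Cfsg.Agent.Lib.Char.SylowSq.Core Cfsg.Agent.Lib.Char.SylowSq.Form
open Cfsg.Agent.Lib.Char.SylowSq.Model
open scoped commutatorElement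

universe u

variable {F : Type u} [Field F]

instance finite_orth [Finite F] {V : Type*} [AddCommGroup V] [Module F V] [Finite V] (Q : QuadraticForm F V) :
    Finite (orthGroup Q) :=
  Finite.of_injective (fun g : orthGroup Q => (g.1 : V → V)) (fun g h hgh => by
    apply Subtype.ext
    apply LinearEquiv.ext
    intro v
    exact congrFun hgh v)

/-- There is a Sylow subgroup of the plane group containing `r₀`. -/
theorem exists_sylow_r0 [Finite F] (h2 : (2 : F) ≠ 0) : ∃ D : Sylow 2 (orthGroup (q2 F)), r0 ∈ D := by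
  have h : IsPGroup 2 (Subgroup.zpowers (r0 : orthGroup (q2 F))) := by
    apply IsPGroup.of_card (n := 1)
    rw [Nat.card_zpowers, pow_one]
    apply orderOf_eq_prime
    · rw [pow_two, r0_mul_self]
    · exact r0_ne_one h2
  obtain ⟨D, hD⟩ := h.exists_le_sylow
  exact ⟨D, hD (Subgroup.mem_zpowers _)⟩

theorem hT_of_S4623 {k : ℕ} (T : Sylow 2 (Equiv.Perm (Fin k))) :
    ∀ π ∈ (T : Subgroup (Equiv.Perm (Fin k))), π ^ 2 ∈ ⁅(T : Subgroup (Equiv.Perm (Fin k))), (T : Subgroup (Equiv.Perm (Fin k)))⁆ := by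
  intro π hπ
  obtain ⟨Q⟩ : Nonempty (Sylow 2 (alternatingGroup (Fin k))) := inferInstance
  have h1 := (Cfsg.Agent.S4623.result 2 k T Q).1 ⟨π, hπ⟩
  rw [← Subgroup.map_subtype_commutator]
  exact ⟨_, h1, by simp⟩

theorem model_main [Finite F] (h2 : (2 : F) ≠ 0) {k : ℕ} (hk : 3 ≤ k) {E : Type} [Fintype E] [DecidableEq E]
    (w : E → Fˣ)
    (hcard : (Nat.card (orthGroup (QV (Fin k) w))).factorization 2 =
      (Nat.card (orthGroup (q2 F))).factorization 2 * k + Fintype.card E + (k.factorial).factorization 2)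
    (P : Sylow 2 (commutator (orthGroup (QV (Fin k) w)))) : SqD P := by
  have : Fact (Nat.Prime 2) := ⟨Nat.prime_two⟩
  obtain ⟨D, hD⟩ := exists_sylow_r0 h2
  obtain ⟨T⟩ : Nonempty (Sylow 2 (Equiv.Perm (Fin k))) := inferInstance
  refine sq_main (κ := Fin k) (A := (D : Subgroup (orthGroup (q2 F)))) (A' := E → ℤˣ)
    (β := betaM (D : Subgroup (orthGroup (q2 F))) w)
    (s := sM w) (T := (T : Subgroup (Equiv.Perm (Fin k))))
    (hconjM _ w) (sM_mem_commutator w) (hinjM _ h2 w)
    (r₀ := ⟨r0, hD⟩) (Subtype.ext r0_mul_self) ?_ ?_ (by simpa using hk) (hT_of_S4623 T) ?_ P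
  · intro d
    rcases orth_dich h2 d.1 with h | h
    · exact Or.inl (Subtype.ext h)
    · exact Or.inr (Subtype.ext h)
  · intro e
    funext j
    exact Int.units_mul_self _
  · have h1 : Nat.card D = 2 ^ (Nat.card (orthGroup (q2 F))).factorization 2 := D.card_eq_multiplicity
    have h3 : Nat.card T = 2 ^ (Nat.card (Equiv.Perm (Fin k))).factorization 2 := T.card_eq_multiplicity
    have h4 : Nat.card (Equiv.Perm (Fin k)) = k.factorial := by
      rw [Nat.card_eq_fintype_card, Fintype.card_perm, Fintype.card_fin]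
    have h5 : Nat.card ℤˣ = 2 := by
      rw [Nat.card_eq_fintype_card, Fintype.card_units_int]
    have h6 : Nat.card (E → ℤˣ) = 2 ^ Fintype.card E := by
      rw [Nat.card_fun, h5, Nat.card_eq_fintype_card (α := E)]
    have h7 : Nat.card (Fin k → (D : Subgroup (orthGroup (q2 F)))) =
        (2 ^ (Nat.card (orthGroup (q2 F))).factorization 2) ^ k := by
      rw [Nat.card_fun, h1, Nat.card_eq_fintype_card (α := Fin k), Fintype.card_fin]
    rw [Nat.card_prod, h6, h7, h3, h4, hcard]
    ring

/-- The diagonal model is isometric to `QV`. -/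
noncomputable def wsToQV (κ : Type) [Fintype κ] [DecidableEq κ] {E : Type} [Fintype E] [DecidableEq E] (w : E → Fˣ) :
    (WS (Sum.elim (fun _ => 1) w : (κ × Fin 2) ⊕ E → Fˣ)).IsometryEquiv (QV κ w) where
  toFun v := (fun i t => v (Sum.inl (i, t)), fun j => v (Sum.inr j))
  invFun p := Sum.elim (fun x => p.1 x.1 x.2) p.2
  map_add' u v := rfl
  map_smul' c v := rfl
  left_inv v := by
    funext x
    rcases x with x | j <;> rfl
  right_inv p := rfl
  map_app' v := by
    rw [QV_apply', WS_apply, Fintype.sum_sum_type]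
    simp

/-- The main theorem for a nondegenerate form with known discriminant and order. -/
theorem main_disc [Fintype F] (hF : Odd (Fintype.card F)) {ι : Type} [Fintype ι] [DecidableEq ι]
    {Q : QuadraticForm F (ι → F)} (hQ : PolarNondeg Q) {k : ℕ} (hk : 3 ≤ k) {E : Type} [Fintype E] [DecidableEq E]
    (w : E → Fˣ) (hι : Fintype.card ι = 2 * k + Fintype.card E)
    {κ' : Type} [Fintype κ'] [DecidableEq κ'] (b : Basis κ' F (ι → F))
    (hd : IsSquare ((Matrix.of fun i j => polar Q (b i) (b j)).det * (2 ^ Fintype.card E * ∏ j, (w j : F))))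
    (hcard : (Nat.card (Cfsg.isometryGroup F (⇑Q))).factorization 2 =
      (Nat.card (orthGroup (q2 F))).factorization 2 * k + Fintype.card E + (k.factorial).factorization 2)
    (P : Sylow 2 (Cfsg.Omega F (⇑Q))) : ∀ x : P, x ^ 2 ∈ commutator P := by
  have h2 : (2 : F) ≠ 0 := two_ne_zero_of_odd hF
  let w' : (Fin k × Fin 2) ⊕ E → Fˣ := Sum.elim (fun _ => 1) w
  have hX : finrank F (ι → F) = Fintype.card ((Fin k × Fin 2) ⊕ E) := by
    rw [finrank_fintype_fun_eq_card, hι]
    simp [Fintype.card_sum, Fintype.card_prod]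
    ring
  have hd' : IsSquare ((Matrix.of fun i j => polar Q (b i) (b j)).det * ∏ t, (2 * (w' t : F))) := by
    have h3 : ∏ t, (2 * (w' t : F)) = (2 ^ k) ^ 2 * (2 ^ Fintype.card E * ∏ j, (w j : F)) := by
      rw [Fintype.prod_sum_type]
      simp only [w', Sum.elim_inl, Sum.elim_inr, Units.val_one, mul_one]
      rw [Finset.prod_const, Finset.card_univ, Fintype.card_prod, Fintype.card_fin, Fintype.card_fin,
        Finset.prod_mul_distrib, Finset.prod_const, Finset.card_univ]
      ring
    rw [h3]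
    have h4 : (Matrix.of fun i j => polar Q (b i) (b j)).det * ((2 ^ k) ^ 2 * (2 ^ Fintype.card E * ∏ j, (w j : F))) =
        (2 ^ k) ^ 2 * ((Matrix.of fun i j => polar Q (b i) (b j)).det * (2 ^ Fintype.card E * ∏ j, (w j : F))) := by
      ring
    rw [h4]
    exact (IsSquare.sq _).mul hd
  have hk0 : 0 < k := by omega
  have hEq : Q.Equivalent (WS w') :=
    equivalent_WS hF hQ hX (Sum.inl (⟨0, hk0⟩, 0)) w' b hd'
  obtain ⟨φ⟩ := hEq
  let e : Cfsg.isometryGroup F (⇑Q) ≃* orthGroup (QV (Fin k) w) :=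
    (isoOrth Q).trans (orthEquiv (φ.trans (wsToQV (Fin k) w)))
  have hc : Nat.card (orthGroup (QV (Fin k) w)) = Nat.card (Cfsg.isometryGroup F (⇑Q)) :=
    (Nat.card_congr e.toEquiv).symm
  have h := sqAll_of_equiv e (model_main h2 hk w (by rw [hc]; exact hcard)) P
  exact h

end Cfsg.Agent.Lib.Char.SylowSq.Main
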