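import Mathlib
import Cfsg.Agent.Lib.Char.SylowSq.Main
import Cfsg.Agent.Lib.Char.SylowSq.Arith
import Cfsg.Agent.S0286
import Cfsg.Agent.S0287
import Cfsg.Agent.S0288

/-!
# The order of the plane group and the form-by-form reductions
-/

set_option autoImplicit false
set_option linter.unusedSectionVars false

namespace Cfsg.Agent.Lib.Char.SylowSq.Plane

open QuadraticMap Module Cfsg.Agent.Lib.Classical.Witt.Hyp Cfsg.Agent.Lib.Classical.Witt.Disc
open Cfsg.Agent.Lib.Linalg.OrthOrder Cfsg.Agent.Lib.Linalg.OrthModels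
open Cfsg.Agent.Lib.Char.SylowSq.Core Cfsg.Agent.Lib.Char.SylowSq.Form
open Cfsg.Agent.Lib.Char.SylowSq.Model Cfsg.Agent.Lib.Char.SylowSq.Main Cfsg.Agent.Lib.Char.SylowSq.Arith

universe u

variable {F : Type u} [Field F] [Fintype F]

theorem q_mod4_of_square (hF : Odd (Fintype.card F)) (h : IsSquare (-1 : F)) : Fintype.card F % 4 = 1 := by
  have h1 := FiniteField.isSquare_neg_one_iff.1 h
  rw [Nat.odd_iff] at hF
  omega

theorem q_mod4_of_not_square (hF : Odd (Fintype.card F)) (h : ¬ IsSquare (-1 : F)) : Fintype.card F % 4 = 3 := by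
  have h1 := mt FiniteField.isSquare_neg_one_iff.2 h
  omega

/-- Weights-one determinant on the plane. -/
theorem prod_two_plane : ∏ t : Fin 2, (2 * (((1 : Fin 2 → Fˣ) t : Fˣ) : F)) = 2 ^ 2 := by
  simp [Fin.prod_univ_two, pow_two]

/-- The order of the plane group has the valuation of `q² - 1`. -/
theorem v2_plane (hF : Odd (Fintype.card F)) :
    (Nat.card (orthGroup (q2 F))).factorization 2 = (Fintype.card F ^ 2 - 1).factorization 2 := by
  classical
  have hq1 : 1 < Fintype.card F := Fintype.one_lt_card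
  have h2 : (2 : F) ≠ 0 := two_ne_zero_of_odd hF
  by_cases hs : IsSquare (-1 : F)
  · -- plus type
    have hb := isSquare_det_plus_iff (F := F) 1 (Pi.basisFun F (Fin 1 ⊕ Fin 1))
    have hEq : (plusQ 1 F).Equivalent (q2 F) := by
      refine equivalent_WS hF (polarNondeg_plusQ 1) ?_ (0 : Fin 2) 1 (Pi.basisFun F (Fin 1 ⊕ Fin 1)) ?_
      · simp
      · rw [prod_two_plane]
        have h3 : IsSquare ((-1 : F) ^ 1) := by simpa using hs
        rw [coe_plusQ]
        exact (hb.2 h3).mul (IsSquare.sq _)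
    obtain ⟨φ⟩ := hEq
    have hc : Nat.card (orthGroup (q2 F)) = Nat.card (Cfsg.isometryGroup F (quadFormPlus 1 F)) :=
      (Nat.card_congr ((isoOrth (plusQ 1 F)).trans (orthEquiv φ)).toEquiv).symm
    rw [hc, Cfsg.Agent.S0287.result rfl 1 le_rfl]
    have h4 := v2_plus_good hF hq1 (m := 1) le_rfl (Or.inr (q_mod4_of_square hF hs))
    simp only [v2, Nat.factorial_one, Nat.factorization_one, Finsupp.coe_zero, Pi.zero_apply] at h4
    rw [h4]
    simp
  · -- minus type
    have hb := isSquare_det_minus_iff (F := F) 0 0 1 (Pi.basisFun F ((Fin 0 ⊕ Fin 0) ⊕ Fin 2))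
    have hab : ∀ z₁ z₂ : F, z₁ ^ 2 + 0 * z₁ * z₂ + 1 * z₂ ^ 2 = 0 → z₁ = 0 ∧ z₂ = 0 := by
      intro z₁ z₂ h
      by_contra hne
      have hz₂ : z₂ ≠ 0 := by
        rintro rfl
        apply hne
        refine ⟨?_, rfl⟩
        have : z₁ ^ 2 = 0 := by linear_combination h
        exact pow_eq_zero_iff (by norm_num) |>.1 this
      apply hs
      refine ⟨z₁ / z₂, ?_⟩
      field_simp
      linear_combination -h
    have hEq : (minusQ 0 F 0 1).Equivalent (q2 F) := by
      refine equivalent_WS hF (polarNondeg_minusQ 0 hab) ?_ (0 : Fin 2) 1 (Pi.basisFun F ((Fin 0 ⊕ Fin 0) ⊕ Fin 2)) ?_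
      · simp
      · rw [prod_two_plane]
        have h3 : IsSquare ((-1 : F) ^ 0 * (4 * 1 - 0 ^ 2)) := ⟨2, by ring⟩
        rw [coe_minusQ]
        exact (hb.2 h3).mul (IsSquare.sq _)
    obtain ⟨φ⟩ := hEq
    have hc : Nat.card (orthGroup (q2 F)) = Nat.card (Cfsg.isometryGroup F (quadFormMinus 0 F 0 1)) :=
      (Nat.card_congr ((isoOrth (minusQ 0 F 0 1)).trans (orthEquiv φ)).toEquiv).symm
    have h5 := Cfsg.Agent.S0288.result (F := F) rfl 1 le_rfl 0 1 hab
    simp only [Nat.sub_self] at h5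
    rw [hc, h5]
    have h6 := q_mod4_of_not_square hF hs
    have h4 := v2_minus_good hF hq1 (m := 1) odd_one h6
    simp only [v2, Nat.factorial_one, Nat.factorization_one, Finsupp.coe_zero, Pi.zero_apply, Nat.sub_self] at h4
    rw [h4]
    simp

/-- The odd-dimensional case. -/
theorem sq_odd (hF : Odd (Fintype.card F)) {m : ℕ} (hm : 3 ≤ m) (P : Sylow 2 (Cfsg.Omega F (Cfsg.quadFormOdd m F))) :
    ∀ x : P, x ^ 2 ∈ commutator P := by
  classical
  have hq1 : 1 < Fintype.card F := Fintype.one_lt_card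
  have h2 : (2 : F) ≠ 0 := two_ne_zero_of_odd hF
  set b := Pi.basisFun F (Unit ⊕ (Fin m ⊕ Fin m)) with hb
  set δ : F := (Matrix.of fun i j => polar (oddQ m F) (b i) (b j)).det with hδ
  obtain ⟨w, hw⟩ : ∃ w : Unit → Fˣ, IsSquare (δ * (2 ^ Fintype.card Unit * ∏ j, (w j : F))) := by
    by_cases h0 : δ = 0
    · exact ⟨1, by simp [h0]⟩
    · refine ⟨fun _ => Units.mk0 (2 * δ) (mul_ne_zero h2 h0), 2 * δ, ?_⟩
      simp
      ring
  exact main_disc hF (polarNondeg_oddQ m h2) hm w (by simp [Fintype.card_sum]; ring) b hw (by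
    rw [v2_plane hF]
    have h3 := Cfsg.Agent.S0286.result (F := F) rfl hF m
    rw [coe_oddQ, h3]
    simpa using v2_order_odd hF hq1 (m ^ 2) m) P

/-- The even-dimensional plus case with `m ≥ 4` (or large enough). -/
theorem sq_plus (hF : Odd (Fintype.card F)) {m : ℕ} (hm : 4 ≤ m) (P : Sylow 2 (Cfsg.Omega F (Cfsg.quadFormPlus m F))) :
    ∀ x : P, x ^ 2 ∈ commutator P := by
  classical
  have hq1 : 1 < Fintype.card F := Fintype.one_lt_card
  have h2 : (2 : F) ≠ 0 := two_ne_zero_of_odd hF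
  set b := Pi.basisFun F (Fin m ⊕ Fin m) with hb
  set δ : F := (Matrix.of fun i j => polar (plusQ m F) (b i) (b j)).det with hδ
  have hδ' := isSquare_det_plus_iff (F := F) m b
  rw [← coe_plusQ, ← hδ] at hδ'
  have hord := Cfsg.Agent.S0287.result (F := F) rfl m (by omega)
  by_cases hs : IsSquare ((-1 : F) ^ m)
  · have hgood : Even m ∨ Fintype.card F % 4 = 1 := by
      rcases Nat.even_or_odd m with he | ho
      · exact Or.inl he
      · right
        rw [ho.neg_one_pow] at hs
        exact q_mod4_of_square hF hs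
    refine main_disc hF (polarNondeg_plusQ m) (k := m) (by omega) (E := Empty) (fun x => x.elim) (by simp [Fintype.card_sum]; ring) b ?_ ?_ P
    · have := hδ'.2 hs
      simpa using this
    · rw [v2_plane hF, coe_plusQ, hord]
      simpa using v2_plus_good hF hq1 (m := m) (by omega) hgood
  · have hodd : Odd m ∧ Fintype.card F % 4 = 3 := by
      rcases Nat.even_or_odd m with he | ho
      · exact absurd (by rw [he.neg_one_pow]; exact IsSquare.one) hs
      · refine ⟨ho, ?_⟩
        rw [ho.neg_one_pow] at hs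
        exact q_mod4_of_not_square hF hs
    have hδ0 : δ ≠ 0 := by
      intro h
      apply hs
      apply hδ'.1
      rw [h]
      exact IsSquare.zero
    refine main_disc hF (polarNondeg_plusQ m) (k := m - 1) (by omega) (E := Fin 2)
      ![1, Units.mk0 δ hδ0] (by simp [Fintype.card_sum]; omega) b ?_ ?_ P
    · refine ⟨2 * δ, ?_⟩
      simp [Fin.prod_univ_two]
      ring
    · rw [v2_plane hF, coe_plusQ, hord]
      simpa using v2_plus_bad hF hq1 (m := m) (by omega) hodd.1 hodd.2

/-- The minus case. -/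
theorem sq_minus (hF : Odd (Fintype.card F)) {m : ℕ} (hm : 4 ≤ m) {a b : F}
    (hab : ∀ z₁ z₂ : F, z₁ ^ 2 + a * z₁ * z₂ + b * z₂ ^ 2 = 0 → z₁ = 0 ∧ z₂ = 0)
    (P : Sylow 2 (Cfsg.Omega F (Cfsg.quadFormMinus (m - 1) F a b))) :
    ∀ x : P, x ^ 2 ∈ commutator P := by
  classical
  have hq1 : 1 < Fintype.card F := Fintype.one_lt_card
  have h2 : (2 : F) ≠ 0 := two_ne_zero_of_odd hF
  set B := Pi.basisFun F ((Fin (m - 1) ⊕ Fin (m - 1)) ⊕ Fin 2) with hB
  set δ : F := (Matrix.of fun i j => polar (minusQ (m - 1) F a b) (B i) (B j)).det with hδ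
  have hδ' := isSquare_det_minus_iff (F := F) (m - 1) a b B
  rw [← coe_minusQ, ← hδ] at hδ'
  have hord := Cfsg.Agent.S0288.result (F := F) rfl m (by omega) a b hab
  have hdisc := not_isSquare_disc h2 hab
  have hringChar : ringChar F ≠ 2 := fun h => h2 (by
    have := ringChar.Nat.cast_ringChar (R := F)
    rw [h] at this
    exact_mod_cast this)
  -- rewriting the discriminant
  have hrew : (-1 : F) ^ (m - 1) * (4 * b - a ^ 2) = (-1 : F) ^ m * (a ^ 2 - 4 * b) := by
    obtain ⟨n, rfl⟩ : ∃ n, m = n + 1 := ⟨m - 1, by omega⟩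
    rw [Nat.add_sub_cancel, pow_succ]
    ring
  rw [hrew] at hδ'
  have hne : (-1 : F) ^ m ≠ 0 := pow_ne_zero _ (neg_ne_zero.2 one_ne_zero)
  have hiff := isSquare_mul_nonsquare_iff hringChar hne hdisc
  by_cases hs : IsSquare δ
  · -- `(-1)^m` is not a square
    have h3 : ¬ IsSquare ((-1 : F) ^ m) := hiff.1 (hδ'.1 hs)
    have hodd : Odd m ∧ Fintype.card F % 4 = 3 := by
      rcases Nat.even_or_odd m with he | ho
      · exact absurd (by rw [he.neg_one_pow]; exact IsSquare.one) h3
      · refine ⟨ho, ?_⟩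
        rw [ho.neg_one_pow] at h3
        exact q_mod4_of_not_square hF h3
    refine main_disc hF (polarNondeg_minusQ (m - 1) hab) (k := m) (by omega) (E := Empty) (fun x => x.elim)
      (by simp [Fintype.card_sum]; omega) B ?_ ?_ P
    · simpa using hs
    · rw [v2_plane hF, coe_minusQ, hord]
      simpa using v2_minus_good hF hq1 hodd.1 hodd.2
  · -- `(-1)^m` is a square
    have h3 : IsSquare ((-1 : F) ^ m) := by
      by_contra h4
      exact hs (hδ'.2 (hiff.2 h4))
    have hδ0 : δ ≠ 0 := by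
      intro h
      apply hs
      rw [h]
      exact IsSquare.zero
    have hmod : Fintype.card F ^ m % 4 = 1 := by
      rcases Nat.even_or_odd m with he | ho
      · exact pow_mod4_even hF he
      · rw [ho.neg_one_pow] at h3
        exact pow_mod4_of_one (q_mod4_of_square hF h3) m
    refine main_disc hF (polarNondeg_minusQ (m - 1) hab) (k := m - 1) (by omega) (E := Fin 2)
      ![1, Units.mk0 δ hδ0] (by simp [Fintype.card_sum]; omega) B ?_ ?_ P
    · refine ⟨2 * δ, ?_⟩
      simp [Fin.prod_univ_two]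
      ring
    · rw [v2_plane hF, coe_minusQ, hord]
      simpa using v2_minus_other hF hq1 hmod

end Cfsg.Agent.Lib.Char.SylowSq.Plane
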