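import Mathlib
import Cfsg.Agent.Lib.Char.SylowSq.Core

/-!
# The wreath-like Sylow subgroup with two planes

With only two planes the commutator trick of `Core` is not available and the index four of `Ω` is used.
-/

set_option autoImplicit false
set_option linter.unusedSectionVars false

namespace Cfsg.Agent.Lib.Char.SylowSq.Core2

open Subgroup Cfsg.Agent.Lib.Char.SylowSq.Core
open scoped commutatorElement

variable {G A A' : Type*} [Group G] [Group A] [Group A'] [Subsingleton A']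
variable {β : (Fin 2 → A) × A' →* G} {s : Equiv.Perm (Fin 2) →* G}

/-- The first-coordinate embedding. -/
def f₀ (β : (Fin 2 → A) × A' →* G) : A →* G :=
  β.comp ((MonoidHom.inl _ _).comp (MonoidHom.mulSingle (fun _ : Fin 2 => A) 0))

theorem f₀_apply (d : A) : f₀ β d = β (Pi.mulSingle 0 d, 1) := rfl

theorem ne01 : (0 : Fin 2) ≠ 1 := by decide

/-- Decomposition of a base element modulo `Ω`. -/
theorem beta_two (a : Fin 2 → A) (e : A') :
    β (a, e) = f₀ β (a 0 * a 1) * β (Pi.mulSingle 0 (a 1)⁻¹ * Pi.mulSingle 1 (a 1)⁻¹⁻¹, 1) := by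
  rw [f₀_apply, ← map_mul]
  congr 1
  refine Prod.ext ?_ (Subsingleton.elim _ _)
  funext x
  simp only [Prod.mk_mul_mk, mul_one, Pi.mul_apply]
  fin_cases x
  · simp
  · simp

variable (hs : ∀ π, s π ∈ commutator G)
include hs

theorem sqIn_two [Finite G] [Finite A] (hconj : ∀ π b, s π * β b * (s π)⁻¹ = β (act π b))
    {T : Subgroup (Equiv.Perm (Fin 2))} {r₀ : A} (hr : r₀ * r₀ = 1) (C : Subgroup A)
    (hCc : ∀ c ∈ C, ∀ c' ∈ C, c * c' = c' * c) (hCi : ∀ c ∈ C, r₀ * c * r₀⁻¹ = c⁻¹)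
    (hAC : ∀ d, d ∉ C → d * d = 1) (hCindex : C.index = 2) {z : A} (hzC : z ∈ C) (hz1 : z ≠ 1)
    (hzz : z * z = 1) (hz : ∀ c ∈ C, c * c = 1 → c = 1 ∨ c = z)
    (hΩ : (commutator G).index = 4) (hT : ∀ π ∈ T, π ^ 2 ∈ ⁅T, T⁆) (hτ : Equiv.swap (0 : Fin 2) 1 ∈ T)
    (P₀ : Sylow 2 G) (hP₀ : (P₀ : Subgroup G) = wr β s hconj T) :
    SqIn (wr β s hconj T ⊓ commutator G) := by
  have hr' : r₀⁻¹ = r₀ := inv_eq_of_mul_eq_one_left hr
  set R := wr β s hconj T ⊓ commutator G with hR
  -- the second factor of `beta_two` lies in `Ω`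
  have hsw : ∀ d : A, β (Pi.mulSingle 0 d * Pi.mulSingle 1 d⁻¹, 1) ∈ commutator G :=
    fun d => comm_swap hs hconj d ne01
  -- the kernel `K`
  let K : Subgroup A := (commutator G).comap (f₀ β)
  have hKmem : ∀ d, d ∈ K ↔ f₀ β d ∈ commutator G := fun d => Iff.rfl
  have hbK : ∀ (a : Fin 2 → A) (e : A'), β (a, e) ∈ commutator G ↔ a 0 * a 1 ∈ K := by
    intro a e
    rw [beta_two a e, hKmem]
    exact Subgroup.mul_mem_cancel_right _ (hsw _)
  -- surjectivity onto `G / Ω`
  have htop : (P₀ : Subgroup G) ⊔ commutator G = ⊤ := by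
    have h1 : ((P₀ : Subgroup G) ⊔ commutator G).index ∣ (P₀ : Subgroup G).index :=
      Subgroup.index_dvd_of_le le_sup_left
    have h2 : ((P₀ : Subgroup G) ⊔ commutator G).index ∣ 4 := by
      rw [← hΩ]
      exact Subgroup.index_dvd_of_le le_sup_right
    have h3 : ¬ 2 ∣ (P₀ : Subgroup G).index := P₀.not_dvd_index
    have h4 : ¬ 2 ∣ ((P₀ : Subgroup G) ⊔ commutator G).index := fun h5 => h3 (h5.trans h1)
    have h5 : ((P₀ : Subgroup G) ⊔ commutator G).index = 1 := by
      have h6 : ((P₀ : Subgroup G) ⊔ commutator G).index ∣ 2 ^ 2 := by simpa using h2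
      obtain ⟨j, hj, hj2⟩ := (Nat.dvd_prime_pow Nat.prime_two).1 h6
      rcases j with _ | j
      · simpa using hj2
      · exact absurd (by rw [hj2, pow_succ]; exact dvd_mul_left _ _) h4
    exact Subgroup.index_eq_one.1 h5
  let φ : G →* G ⧸ commutator G := QuotientGroup.mk' (commutator G)
  have hφ : ∀ g, φ g = 1 ↔ g ∈ commutator G := fun g => QuotientGroup.eq_one_iff g
  have hsurj : Function.Surjective (φ.comp (f₀ β)) := by
    intro y
    obtain ⟨g, rfl⟩ := QuotientGroup.mk'_surjective _ y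
    have hg : g ∈ (P₀ : Subgroup G) ⊔ commutator G := by rw [htop]; trivial
    rw [← SetLike.mem_coe, Subgroup.mul_normal] at hg
    obtain ⟨p, hp, n, hn, rfl⟩ := Set.mem_mul.mp hg
    have hp' : p ∈ wr β s hconj T := by rw [← hP₀]; exact hp
    obtain ⟨⟨a, e⟩, π, hπ, rfl⟩ := hp'
    refine ⟨a 0 * a 1, ?_⟩
    show φ (f₀ β (a 0 * a 1)) = φ (β (a, e) * s π * n)
    have h1 : φ (s π) = 1 := (hφ _).2 (hs π)
    have h2 : φ n = 1 := (hφ _).2 hn
    have h3 : φ (β (Pi.mulSingle 0 (a 1)⁻¹ * Pi.mulSingle 1 (a 1)⁻¹⁻¹, 1)) = 1 := (hφ _).2 (hsw _)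
    rw [map_mul φ, map_mul φ, h1, h2, beta_two a e, map_mul φ, h3]
    simp
  have hKindex : K.index = 4 := by
    have h1 : K = (φ.comp (f₀ β)).ker := by
      ext d
      rw [MonoidHom.mem_ker, MonoidHom.comp_apply, hφ]
      rfl
    rw [h1, Subgroup.index_ker, MonoidHom.range_eq_top.2 hsurj, Subgroup.card_top, ← hΩ,
      Subgroup.index_eq_card]
  -- the squares of `C`
  let sqC : C →* A :=
    { toFun := fun c => (c : A) * c
      map_one' := by simp
      map_mul' := by
        rintro ⟨a, ha⟩ ⟨b, hb⟩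
        show a * b * (a * b) = a * a * (b * b)
        calc a * b * (a * b) = a * (b * a) * b := by group
          _ = a * (a * b) * b := by rw [hCc b hb a ha]
          _ = a * a * (b * b) := by group }
  have hsqC : ∀ c : C, sqC c = (c : A) * c := fun c => rfl
  have hle : sqC.range ≤ K := by
    rintro _ ⟨c, rfl⟩
    exact comm_inv (β := β) (hCi c c.2) 0
  have hkercard : Nat.card sqC.ker = 2 := by
    rw [Nat.card_eq_two_iff]
    refine ⟨1, ⟨⟨z, hzC⟩, ?_⟩, ?_, ?_⟩
    · rw [MonoidHom.mem_ker, hsqC]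
      exact hzz
    · intro h
      apply hz1
      have := congrArg (fun x : sqC.ker => ((x : C) : A)) h
      exact this.symm
    · ext x
      simp only [Set.mem_insert_iff, Set.mem_singleton_iff, Set.mem_univ, iff_true]
      obtain ⟨⟨c, hc⟩, hc'⟩ := x
      rw [MonoidHom.mem_ker, hsqC] at hc'
      rcases hz c hc hc' with h | h
      · left
        subst h
        rfl
      · right
        subst h
        rfl
  have hKeq : sqC.range = K := by
    apply Subgroup.eq_of_le_of_card_ge hle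
    have h1 : Nat.card C * 2 = Nat.card A := by
      rw [← hCindex]
      exact Subgroup.card_mul_index C
    have h2 : Nat.card K * 4 = Nat.card A := by
      rw [← hKindex]
      exact Subgroup.card_mul_index K
    have h3 : Nat.card sqC.ker * Nat.card sqC.range = Nat.card C := by
      rw [← Subgroup.index_ker]
      exact Subgroup.card_mul_index _
    rw [hkercard] at h3
    omega
  -- squares of the diagonal elements
  have hRs : s (Equiv.swap (0 : Fin 2) 1) ∈ R := ⟨s_mem_wr hτ, hs _⟩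
  have hdiag : ∀ c ∈ C, β (Pi.mulSingle 0 (c * c) * Pi.mulSingle 1 (c * c), 1) ∈ ⁅R, R⁆ := by
    intro c hc
    have hu : β (Pi.mulSingle 0 r₀ * Pi.mulSingle 1 r₀, 1) ∈ R := by
      refine ⟨beta_mem_wr _, ?_⟩
      have := hsw r₀
      rwa [hr'] at this
    have hci : r₀ * c⁻¹ * r₀⁻¹ = (c⁻¹)⁻¹ := by
      rw [inv_inv]
      exact conj_inv_of (hCi c hc)
    have hv : β (Pi.mulSingle 0 c⁻¹ * Pi.mulSingle 1 c⁻¹, 1) ∈ R := by
      refine ⟨beta_mem_wr _, ?_⟩
      have h1 := hsw c⁻¹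
      have h2 := comm_inv (β := β) hci 1
      have h3 : β (Pi.mulSingle 0 c⁻¹ * Pi.mulSingle 1 c⁻¹, 1) =
          β (Pi.mulSingle 0 c⁻¹ * Pi.mulSingle 1 c⁻¹⁻¹, 1) * β (Pi.mulSingle 1 (c⁻¹ * c⁻¹), 1) := by
        rw [← map_mul]
        congr 1
        refine Prod.ext ?_ (Subsingleton.elim _ _)
        funext x
        simp only [Prod.mk_mul_mk, Pi.mul_apply]
        fin_cases x <;> simp
      rw [h3]
      exact (commutator G).mul_mem h1 h2
    have h4 : β (Pi.mulSingle 0 (c * c) * Pi.mulSingle 1 (c * c), 1) =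
        ⁅β (Pi.mulSingle 0 r₀ * Pi.mulSingle 1 r₀, 1), β (Pi.mulSingle 0 c⁻¹ * Pi.mulSingle 1 c⁻¹, 1)⁆ := by
      rw [← map_commutatorElement]
      congr 1
      have h5 : ⁅r₀, c⁻¹⁆ = c * c := by
        rw [commutatorElement_def, conj_inv_of (hCi c hc)]
        group
      refine Prod.ext ?_ (Subsingleton.elim _ _)
      simp only [commutatorElement_def, Prod.fst_mul, Prod.fst_inv]
      funext x
      simp only [Pi.mul_apply, Pi.inv_apply]
      by_cases hx : x = 0
      · subst hx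
        simp only [Pi.mulSingle_eq_same, Pi.mulSingle_eq_of_ne ne01, mul_one, inv_one]
        rw [← commutatorElement_def, h5]
      · obtain rfl : x = 1 := by omega
        simp only [Pi.mulSingle_eq_same, Pi.mulSingle_eq_of_ne (Ne.symm ne01), one_mul, inv_one]
        rw [← commutatorElement_def, h5]
    rw [h4]
    exact commutator_mem_commutator hu hv
  have hfourth : ∀ f ∈ C, β (Pi.mulSingle 1 (f * f * (f * f)), 1) ∈ ⁅R, R⁆ := by
    intro f hf
    have hw : β (Pi.mulSingle 0 f * Pi.mulSingle 1 f⁻¹, 1) ∈ R := ⟨beta_mem_wr _, hsw f⟩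
    have h1 : ⁅s (Equiv.swap (0 : Fin 2) 1), β (Pi.mulSingle 0 f * Pi.mulSingle 1 f⁻¹, 1)⁆ ∈ ⁅R, R⁆ :=
      commutator_mem_commutator hRs hw
    have h2 : ⁅s (Equiv.swap (0 : Fin 2) 1), β (Pi.mulSingle 0 f * Pi.mulSingle 1 f⁻¹, 1)⁆ =
        β (Pi.mulSingle 0 (f⁻¹ * f⁻¹) * Pi.mulSingle 1 (f * f), 1) := by
      rw [commutatorElement_def, hconj, ← map_inv, ← map_mul]
      congr 1
      refine Prod.ext ?_ (Subsingleton.elim _ _)
      funext x
      simp only [act, Prod.fst_mul, Prod.fst_inv, Pi.mul_apply, Pi.inv_apply, Equiv.swap_inv]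
      by_cases hx : x = 0
      · subst hx
        simp [Pi.mulSingle_eq_of_ne (Ne.symm ne01), Pi.mulSingle_eq_of_ne ne01]
      · obtain rfl : x = 1 := by omega
        simp [Pi.mulSingle_eq_of_ne (Ne.symm ne01), Pi.mulSingle_eq_of_ne ne01]
    rw [h2] at h1
    have h3 := hdiag f hf
    have h4 : β (Pi.mulSingle 1 (f * f * (f * f)), 1) =
        β (Pi.mulSingle 0 (f⁻¹ * f⁻¹) * Pi.mulSingle 1 (f * f), 1) *
          β (Pi.mulSingle 0 (f * f) * Pi.mulSingle 1 (f * f), 1) := by
      rw [← map_mul]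
      congr 1
      refine Prod.ext ?_ (Subsingleton.elim _ _)
      funext x
      simp only [Prod.mk_mul_mk, Pi.mul_apply]
      by_cases hx : x = 0
      · subst hx
        simp only [Pi.mulSingle_eq_same, Pi.mulSingle_eq_of_ne ne01, mul_one]
        group
      · obtain rfl : x = 1 := by omega
        simp only [Pi.mulSingle_eq_same, Pi.mulSingle_eq_of_ne (Ne.symm ne01), one_mul]
    rw [h4]
    exact Subgroup.mul_mem _ h1 h3
  -- the squares of base elements in `Ω`
  have hbase : ∀ b : (Fin 2 → A) × A', β b ∈ commutator G → β (b * b) ∈ ⁅R, R⁆ := by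
    rintro ⟨a, e⟩ hb
    have h1 : a 0 * a 1 ∈ K := (hbK a e).1 hb
    rw [← hKeq] at h1
    obtain ⟨c, hc⟩ := h1
    rw [hsqC] at hc
    have hcC := c.2
    by_cases h0 : a 0 ∈ C
    · -- both in `C`
      have h1C : a 1 ∈ C := by
        have : a 1 = (a 0)⁻¹ * ((c : A) * c) := by rw [hc]; group
        rw [this]
        exact C.mul_mem (C.inv_mem h0) (C.mul_mem hcC hcC)
      let f : A := (a 0)⁻¹ * c
      have hfC : f ∈ C := C.mul_mem (C.inv_mem h0) hcC
      have ha1 : a 1 * a 1 = a 0 * a 0 * (f * f * (f * f)) := by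
        have h5 : a 1 = (a 0)⁻¹ * ((c : A) * c) := by rw [hc]; group
        have hxC : (a 0)⁻¹ ∈ C := C.inv_mem h0
        have hcm : Commute (a 0)⁻¹ (c : A) := hCc _ hxC _ hcC
        have h6 : a 1 = (a 0)⁻¹ * (c : A) ^ 2 := by rw [h5, pow_two]
        have h7 : a 1 * a 1 = ((a 0)⁻¹) ^ 2 * (c : A) ^ 4 := by
          rw [← pow_two, h6, (hcm.pow_right 2).mul_pow 2]
          group
        have h8 : f * f * (f * f) = ((a 0)⁻¹) ^ 4 * (c : A) ^ 4 := by
          rw [← hcm.mul_pow 4]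
          show (a 0)⁻¹ * c * ((a 0)⁻¹ * c) * ((a 0)⁻¹ * c * ((a 0)⁻¹ * c)) = _
          simp only [pow_succ, pow_zero, one_mul, mul_assoc]
        rw [h7, h8]
        group
      have hbb : ((a, e) * (a, e) : (Fin 2 → A) × A') =
          (Pi.mulSingle 0 (a 0 * a 0) * Pi.mulSingle 1 (a 0 * a 0), 1) * (Pi.mulSingle 1 (f * f * (f * f)), 1) := by
        refine Prod.ext ?_ (Subsingleton.elim _ _)
        funext x
        simp only [Prod.mk_mul_mk, Pi.mul_apply]
        by_cases hx : x = 0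
        · subst hx
          simp only [Pi.mulSingle_eq_same, Pi.mulSingle_eq_of_ne ne01, mul_one]
        · obtain rfl : x = 1 := by omega
          simp only [Pi.mulSingle_eq_same, Pi.mulSingle_eq_of_ne (Ne.symm ne01), one_mul]
          rw [ha1]
      rw [hbb, map_mul]
      exact Subgroup.mul_mem _ (hdiag _ h0) (hfourth f hfC)
    · have h1C : a 1 ∉ C := by
        intro h2
        apply h0
        have : a 0 = (c : A) * c * (a 1)⁻¹ := by rw [hc]; group
        rw [this]
        exact C.mul_mem (C.mul_mem hcC hcC) (C.inv_mem h2)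
      have : ((a, e) * (a, e) : (Fin 2 → A) × A') = 1 := by
        refine Prod.ext ?_ (Subsingleton.elim _ _)
        funext x
        fin_cases x
        · exact hAC _ h0
        · exact hAC _ h1C
      rw [this, map_one]
      exact Subgroup.one_mem _
  -- the final computation
  rintro x ⟨⟨b, π, hπ, rfl⟩, hx⟩
  have hz' : s π ∈ R := ⟨s_mem_wr hπ, hs π⟩
  have hy : β b ∈ R := by
    refine ⟨beta_mem_wr _, ?_⟩
    have : β b = (β b * s π) * (s π)⁻¹ := by group
    rw [this]
    exact (commutator G).mul_mem hx ((commutator G).inv_mem (hs π))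
  have h1 : (β b * s π) ^ 2 = β (b * b) * ⁅(β b)⁻¹, s π⁆ * s (π ^ 2) := by
    rw [map_mul, map_pow, commutatorElement_def]
    simp only [pow_two, mul_assoc, mul_inv_cancel_left, inv_mul_cancel_left, inv_inv]
  rw [h1]
  refine Subgroup.mul_mem _ (Subgroup.mul_mem _ (hbase b hy.2) ?_) ?_
  · exact commutator_mem_commutator (R.inv_mem hy) hz'
  · have h2 : T.map s ≤ R := by
      rintro _ ⟨π', hπ', rfl⟩
      exact ⟨s_mem_wr hπ', hs π'⟩
    have h3 : s (π ^ 2) ∈ (⁅T, T⁆).map s := ⟨_, hT π hπ, rfl⟩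
    rw [map_commutator] at h3
    exact commutator_mono h2 h2 h3

end Cfsg.Agent.Lib.Char.SylowSq.Core2
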