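import Mathlib
import Cfsg.Agent.Lib.Char.SylowSq.Plane
import Cfsg.Agent.Lib.Char.SylowSq.Core2
import Cfsg.Agent.Lib.Classical.Orth.Spinor

/-!
# The case of two planes: `Ω⁺₄(q)`
-/

set_option autoImplicit false
set_option linter.unusedSectionVars false

namespace Cfsg.Agent.Lib.Char.SylowSq.Two

open QuadraticMap Module Cfsg.Agent.Lib.Classical.Witt.Hyp Cfsg.Agent.Lib.Classical.Witt.Disc
open Cfsg.Agent.Lib.Linalg.OrthOrder Cfsg.Agent.Lib.Linalg.OrthModels
open Cfsg.Agent.Lib.Char.SylowSq.Core Cfsg.Agent.Lib.Char.SylowSq.Form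
open Cfsg.Agent.Lib.Char.SylowSq.Model Cfsg.Agent.Lib.Char.SylowSq.Main Cfsg.Agent.Lib.Char.SylowSq.Arith
open Cfsg.Agent.Lib.Char.SylowSq.Plane Cfsg.Agent.Lib.Char.SylowSq.Core2
open scoped commutatorElement

universe u

variable {F : Type u} [Field F]

/-- Rotation with parameters `(a, b)`. -/
def IsRotP (g : orthGroup (q2 F)) (a b : F) : Prop :=
  ∀ v : Fin 2 → F, g.1 v 0 = a * v 0 + b * v 1 ∧ g.1 v 1 = - b * v 0 + a * v 1

/-- The rotations. -/
def rot (h2 : (2 : F) ≠ 0) : Subgroup (orthGroup (q2 F)) where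
  carrier := {g | ∃ a b : F, a * a + b * b = 1 ∧ IsRotP g a b}
  mul_mem' := by
    rintro g g' ⟨a, b, hab, h⟩ ⟨a', b', hab', h'⟩
    refine ⟨a * a' - b * b', a * b' + b * a', ?_, ?_⟩
    · linear_combination (a' * a' + b' * b') * hab + hab'
    · intro v
      show g.1 (g'.1 v) 0 = _ ∧ g.1 (g'.1 v) 1 = _
      obtain ⟨h1, h3⟩ := h (g'.1 v)
      obtain ⟨h4, h5⟩ := h' v
      rw [h1, h3, h4, h5]
      constructor <;> ring
  one_mem' := ⟨1, 0, by ring, fun v => ⟨by show v 0 = _; ring, by show v 1 = _; ring⟩⟩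
  inv_mem' := by
    rintro g ⟨a, b, hab, h⟩
    refine ⟨a, -b, by linear_combination hab, ?_⟩
    intro v
    -- `g⁻¹ v = w`, with `g w = v`
    set w : Fin 2 → F := (g⁻¹).1 v with hw
    have hgw : g.1 w = v := by
      have := congrArg (fun k : orthGroup (q2 F) => k.1 v) (mul_inv_cancel g)
      exact this
    obtain ⟨h1, h3⟩ := h w
    rw [hgw] at h1 h3
    constructor
    · rw [h1, h3]
      linear_combination (- w 0) * hab
    · rw [h1, h3]
      linear_combination (- w 1) * hab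

theorem mem_rot {h2 : (2 : F) ≠ 0} {g : orthGroup (q2 F)} :
    g ∈ rot h2 ↔ ∃ a b : F, a * a + b * b = 1 ∧ IsRotP g a b := Iff.rfl

theorem eq_of_params {g g' : orthGroup (q2 F)}
    (h : ∀ v : Fin 2 → F, g.1 v 0 = g'.1 v 0 ∧ g.1 v 1 = g'.1 v 1) : g = g' := by
  apply Subtype.ext
  apply LinearEquiv.ext
  intro v
  funext i
  fin_cases i
  · exact (h v).1
  · exact (h v).2

theorem rot_comm {h2 : (2 : F) ≠ 0} {g g' : orthGroup (q2 F)} (hg : g ∈ rot h2) (hg' : g' ∈ rot h2) :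
    g * g' = g' * g := by
  obtain ⟨a, b, hab, h⟩ := hg
  obtain ⟨a', b', hab', h'⟩ := hg'
  apply eq_of_params
  intro v
  show g.1 (g'.1 v) 0 = g'.1 (g.1 v) 0 ∧ g.1 (g'.1 v) 1 = g'.1 (g.1 v) 1
  obtain ⟨e1, e2⟩ := h (g'.1 v)
  obtain ⟨e3, e4⟩ := h' (g.1 v)
  obtain ⟨e5, e6⟩ := h v
  obtain ⟨e7, e8⟩ := h' v
  rw [e1, e2, e3, e4, e5, e6, e7, e8]
  constructor <;> ring

theorem rot_inv {h2 : (2 : F) ≠ 0} {g : orthGroup (q2 F)} (hg : g ∈ rot h2) : r0 * g * r0⁻¹ = g⁻¹ := by
  obtain ⟨a, b, hab, h⟩ := hg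
  have hr : (r0 : orthGroup (q2 F))⁻¹ = r0 := inv_eq_of_mul_eq_one_left r0_mul_self
  rw [hr]
  apply eq_inv_of_mul_eq_one_left
  apply eq_of_params
  intro v
  show r0L (g.1 (r0L (g.1 v))) 0 = v 0 ∧ r0L (g.1 (r0L (g.1 v))) 1 = v 1
  rw [r0L_zero, r0L_one, (h _).1, (h _).2, r0L_zero, r0L_one, (h v).1, (h v).2]
  constructor
  · linear_combination (v 0) * hab
  · linear_combination (v 1) * hab

theorem r0_not_rot (h2 : (2 : F) ≠ 0) : (r0 : orthGroup (q2 F)) ∉ rot h2 := by
  rintro ⟨a, b, hab, h⟩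
  have e1 := (h ![1, 0]).1
  have e2 := (h ![0, 1]).2
  have e3 : r0L ![(1 : F), 0] 0 = 1 := rfl
  have e4 : r0L ![(0 : F), 1] 1 = -1 := by rw [r0L_one]; rfl
  have e1' : (1 : F) = a := by
    have : (r0 : orthGroup (q2 F)).1 ![(1 : F), 0] 0 = 1 := e3
    rw [this] at e1
    simpa using e1
  have e2' : (-1 : F) = a := by
    have : (r0 : orthGroup (q2 F)).1 ![(0 : F), 1] 1 = -1 := e4
    rw [this] at e2
    simpa using e2
  apply h2
  have : (1 : F) = -1 := e1'.trans e2'.symm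
  linear_combination this

theorem not_rot_sq (h2 : (2 : F) ≠ 0) {g : orthGroup (q2 F)} (hg : g ∉ rot h2) : g * g = 1 := by
  obtain ⟨a, b, hab, h | h⟩ := orth_matrix h2 g
  · exact absurd ⟨a, b, hab, h⟩ hg
  · apply eq_of_params
    intro v
    show g.1 (g.1 v) 0 = v 0 ∧ g.1 (g.1 v) 1 = v 1
    obtain ⟨e1, e2⟩ := h (g.1 v)
    obtain ⟨e5, e6⟩ := h v
    rw [e1, e2, e5, e6]
    constructor
    · linear_combination (v 0) * hab
    · linear_combination (v 1) * hab

theorem not_rot_mul_r0 (h2 : (2 : F) ≠ 0) {g : orthGroup (q2 F)} (hg : g ∉ rot h2) : g * r0 ∈ rot h2 := by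
  obtain ⟨a, b, hab, h | h⟩ := orth_matrix h2 g
  · exact absurd ⟨a, b, hab, h⟩ hg
  · refine ⟨a, -b, by linear_combination hab, ?_⟩
    intro v
    show g.1 (r0L v) 0 = _ ∧ g.1 (r0L v) 1 = _
    rw [(h _).1, (h _).2, r0L_zero, r0L_one]
    constructor <;> ring

/-- The central involution `-1`. -/
noncomputable def zM : orthGroup (q2 F) := ⟨LinearEquiv.neg F, by
  intro v
  rw [q2_apply, q2_apply]
  show (- v) 0 * (- v) 0 + (- v) 1 * (- v) 1 = _
  simp⟩

theorem zM_apply (v : Fin 2 → F) (i : Fin 2) : (zM : orthGroup (q2 F)).1 v i = - v i := rfl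

theorem zM_rot (h2 : (2 : F) ≠ 0) : (zM : orthGroup (q2 F)) ∈ rot h2 := by
  refine ⟨-1, 0, by ring, ?_⟩
  intro v
  rw [zM_apply, zM_apply]
  constructor <;> ring

theorem zM_sq : (zM : orthGroup (q2 F)) * zM = 1 := by
  apply eq_of_params
  intro v
  show - (- v 0) = v 0 ∧ - (- v 1) = v 1
  simp

theorem zM_ne_one (h2 : (2 : F) ≠ 0) : (zM : orthGroup (q2 F)) ≠ 1 := by
  intro h
  have h1 := congrArg (fun g : orthGroup (q2 F) => g.1 (fun _ => 1) 0) h
  have h3 : (-1 : F) = 1 := h1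
  apply h2
  linear_combination -h3

theorem zM_central (g : orthGroup (q2 F)) : g * zM = zM * g := by
  apply eq_of_params
  intro v
  show g.1 (- v) 0 = - (g.1 v 0) ∧ g.1 (- v) 1 = - (g.1 v 1)
  rw [map_neg]
  exact ⟨rfl, rfl⟩

theorem rot_sq_eq (h2 : (2 : F) ≠ 0) {g : orthGroup (q2 F)} (hg : g ∈ rot h2) (hgg : g * g = 1) :
    g = 1 ∨ g = zM := by
  obtain ⟨a, b, hab, h⟩ := hg
  have h1 : ∀ v : Fin 2 → F, g.1 (g.1 v) = v := fun v =>
    congrArg (fun k : orthGroup (q2 F) => k.1 v) hgg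
  have h3 := h1 ![1, 0]
  have h4 := congrFun h3 0
  rw [(h _).1, (h _).1, (h _).2] at h4
  simp only [Matrix.cons_val_zero, Matrix.cons_val_one, mul_one, mul_zero, add_zero] at h4
  have h5 := congrFun (h1 ![1, 0]) 1
  rw [(h _).2, (h _).1, (h _).2] at h5
  simp only [Matrix.cons_val_zero, Matrix.cons_val_one, mul_one, mul_zero, add_zero] at h5
  have h6 : 2 * (a * a - 1) = 0 := by linear_combination h4 + hab
  have h7 : a * a = 1 := by
    have := (mul_eq_zero.mp h6).resolve_left h2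
    linear_combination this
  have h8 : b * b = 0 := by linear_combination hab - h7
  have h9 : b = 0 := mul_self_eq_zero.mp h8
  have h10 : (a - 1) * (a + 1) = 0 := by linear_combination h7
  rcases mul_eq_zero.mp h10 with h11 | h11
  · left
    have ha : a = 1 := by linear_combination h11
    apply eq_of_params
    intro v
    show g.1 v 0 = v 0 ∧ g.1 v 1 = v 1
    rw [(h v).1, (h v).2, ha, h9]
    constructor <;> ring
  · right
    have ha : a = -1 := by linear_combination h11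
    apply eq_of_params
    intro v
    rw [(h v).1, (h v).2, ha, h9, zM_apply, zM_apply]
    constructor <;> ring

/-- Every Sylow `2`-subgroup of the plane group contains the central involution. -/
theorem zM_mem_sylow [Finite F] (h2 : (2 : F) ≠ 0) (D : Sylow 2 (orthGroup (q2 F))) : zM ∈ D := by
  have hz : IsPGroup 2 (Subgroup.zpowers (zM : orthGroup (q2 F))) := by
    apply IsPGroup.of_card (n := 1)
    rw [Nat.card_zpowers, pow_one]
    apply orderOf_eq_prime
    · rw [pow_two, zM_sq]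
    · exact zM_ne_one h2
  have hn : (Subgroup.zpowers (zM : orthGroup (q2 F))).Normal := by
    refine ⟨?_⟩
    rintro _ ⟨k, rfl⟩ g
    refine ⟨k, ?_⟩
    have h1 : Commute g (zM ^ k) := Commute.zpow_right (zM_central g) k
    show zM ^ k = g * zM ^ k * g⁻¹
    rw [h1.eq]
    group
  have h3 := IsPGroup.to_sup_of_normal_right D.2 hz
  have h4 := D.is_maximal' h3 le_sup_left
  have : zM ∈ (D : Subgroup (orthGroup (q2 F))) ⊔ Subgroup.zpowers zM :=
    Subgroup.mem_sup_right (Subgroup.mem_zpowers _)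
  rw [h4] at this
  exact this

section Main

/-- The model with two planes. -/
theorem model_main₂ [Finite F] (h2 : (2 : F) ≠ 0) (w : Empty → Fˣ)
    (hcard : (Nat.card (orthGroup (QV (Fin 2) w))).factorization 2 =
      (Nat.card (orthGroup (q2 F))).factorization 2 * 2 + 0 + (Nat.factorial 2).factorization 2)
    (hΩ : (commutator (orthGroup (QV (Fin 2) w))).index = 4)
    (P : Sylow 2 (commutator (orthGroup (QV (Fin 2) w)))) : SqD P := by
  have : Fact (Nat.Prime 2) := ⟨Nat.prime_two⟩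
  obtain ⟨D, hD⟩ := exists_sylow_r0 h2
  obtain ⟨T⟩ : Nonempty (Sylow 2 (Equiv.Perm (Fin 2))) := inferInstance
  have hzD := zM_mem_sylow h2 D
  have hT_top : (T : Subgroup (Equiv.Perm (Fin 2))) = ⊤ := by
    have h3 : IsPGroup 2 (⊤ : Subgroup (Equiv.Perm (Fin 2))) := by
      apply IsPGroup.of_card (n := 1)
      rw [Subgroup.card_top, Nat.card_eq_fintype_card, Fintype.card_perm, Fintype.card_fin]
      rfl
    exact (T.is_maximal' h3 le_top).symm ▸ rfl
  let β := betaM (κ := Fin 2) (D : Subgroup (orthGroup (q2 F))) w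
  let s := sM (κ := Fin 2) w
  have hconj : ∀ (π : Equiv.Perm (Fin 2)) (b : (Fin 2 → (D : Subgroup (orthGroup (q2 F)))) × (Empty → ℤˣ)),
      s π * β b * (s π)⁻¹ = β (act π b) := hconjM _ w
  have hinj := hinjM (κ := Fin 2) (D : Subgroup (orthGroup (q2 F))) h2 w
  have hc : Nat.card (wr β s hconj (T : Subgroup (Equiv.Perm (Fin 2)))) =
      2 ^ (Nat.card (orthGroup (QV (Fin 2) w))).factorization 2 := by
    rw [card_wr hconj hinj]
    have h1 : Nat.card D = 2 ^ (Nat.card (orthGroup (q2 F))).factorization 2 := D.card_eq_multiplicity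
    have h3 : Nat.card T = 2 ^ (Nat.card (Equiv.Perm (Fin 2))).factorization 2 := T.card_eq_multiplicity
    have h4 : Nat.card (Equiv.Perm (Fin 2)) = Nat.factorial 2 := by
      rw [Nat.card_eq_fintype_card, Fintype.card_perm, Fintype.card_fin]
    have h7 : Nat.card (Fin 2 → (D : Subgroup (orthGroup (q2 F)))) =
        (2 ^ (Nat.card (orthGroup (q2 F))).factorization 2) ^ 2 := by
      rw [Nat.card_fun, h1, Nat.card_eq_fintype_card (α := Fin 2), Fintype.card_fin]
    have h6 : Nat.card (Empty → ℤˣ) = 1 := by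
      rw [Nat.card_eq_fintype_card]
      simp
    rw [Nat.card_prod, h6, h7, h3, h4, hcard]
    ring
  let P₀ : Sylow 2 (orthGroup (QV (Fin 2) w)) := Sylow.ofCard _ hc
  have hP₀ : (P₀ : Subgroup (orthGroup (QV (Fin 2) w))) = wr β s hconj (T : Subgroup (Equiv.Perm (Fin 2))) := rfl
  -- the subgroup `C`
  let C : Subgroup (D : Subgroup (orthGroup (q2 F))) := (rot h2).subgroupOf (D : Subgroup (orthGroup (q2 F)))
  have hCmem : ∀ d : (D : Subgroup (orthGroup (q2 F))), d ∈ C ↔ d.1 ∈ rot h2 := fun d => Iff.rfl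
  have hCindex : C.index = 2 := by
    rw [Subgroup.index_eq_two_iff]
    refine ⟨⟨r0, hD⟩, ?_⟩
    intro b
    by_cases hb : b ∈ C
    · refine Or.inr ⟨hb, ?_⟩
      intro h3
      apply r0_not_rot h2
      have h4 : (r0 : orthGroup (q2 F)) = (b.1)⁻¹ * (b.1 * r0) := by group
      rw [h4]
      exact (rot h2).mul_mem ((rot h2).inv_mem hb) h3
    · refine Or.inl ⟨not_rot_mul_r0 h2 hb, hb⟩
  have hsq : SqIn (wr β s hconj (T : Subgroup (Equiv.Perm (Fin 2))) ⊓ commutator (orthGroup (QV (Fin 2) w))) := by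
    refine sqIn_two (sM_mem_commutator w) hconj (r₀ := ⟨r0, hD⟩) (Subtype.ext r0_mul_self) C ?_ ?_ ?_ hCindex
      (z := ⟨zM, hzD⟩) (zM_rot h2) ?_ (Subtype.ext zM_sq) ?_ hΩ (hT_of_S4623 T) ?_ P₀ hP₀
    · intro c hc c' hc'
      exact Subtype.ext (rot_comm (h2 := h2) hc hc')
    · intro c hc
      exact Subtype.ext (rot_inv (h2 := h2) hc)
    · intro d hd
      exact Subtype.ext (not_rot_sq h2 hd)
    · intro h3
      exact zM_ne_one h2 (congrArg Subtype.val h3)
    · intro c hc hcc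
      rcases rot_sq_eq h2 hc (congrArg Subtype.val hcc) with h3 | h3
      · exact Or.inl (Subtype.ext h3)
      · exact Or.inr (Subtype.ext h3)
    · rw [hT_top]
      trivial
  exact sqD_of_sylow P₀ hsq P

/-- Index of the derived subgroup along an isomorphism. -/
theorem index_commutator_of_equiv {G G' : Type*} [Group G] [Group G'] (e : G ≃* G')
    (h : (commutator G).index = 4) : (commutator G').index = 4 := by
  have h1 : (commutator G).map e.toMonoidHom = commutator G' := by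
    rw [_root_.commutator_def, _root_.commutator_def, Subgroup.map_commutator,
      Subgroup.map_top_of_surjective _ e.surjective]
  have h3 : (commutator G).map e.toMonoidHom = (commutator G).comap e.symm.toMonoidHom :=
    Subgroup.map_equiv_eq_comap_symm e _
  rw [← h1, h3, Subgroup.index_comap_of_surjective _ e.symm.surjective]
  exact h

/-- The case `m = 2` of the plus type. -/
theorem sq_plus_two [Fintype F] (hF : Odd (Fintype.card F)) (P : Sylow 2 (Cfsg.Omega F (Cfsg.quadFormPlus 2 F))) :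
    ∀ x : P, x ^ 2 ∈ commutator P := by
  classical
  have hq1 : 1 < Fintype.card F := Fintype.one_lt_card
  have h2 : (2 : F) ≠ 0 := two_ne_zero_of_odd hF
  set b := Pi.basisFun F (Fin 2 ⊕ Fin 2) with hb
  have hδ' := isSquare_det_plus_iff (F := F) 2 b
  rw [← coe_plusQ] at hδ'
  have hδ : IsSquare (Matrix.of fun i j => polar (plusQ 2 F) (b i) (b j)).det := hδ'.2 (by simp)
  let w : Empty → Fˣ := fun x => x.elim
  let w' : (Fin 2 × Fin 2) ⊕ Empty → Fˣ := Sum.elim (fun _ => 1) w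
  have hX : finrank F (Fin 2 ⊕ Fin 2 → F) = Fintype.card ((Fin 2 × Fin 2) ⊕ Empty) := by
    rw [finrank_fintype_fun_eq_card]
    simp
  have hd' : IsSquare ((Matrix.of fun i j => polar (plusQ 2 F) (b i) (b j)).det * ∏ t, (2 * (w' t : F))) := by
    have h3 : ∏ t, (2 * (w' t : F)) = (2 ^ 2) ^ 2 := by
      rw [Fintype.prod_sum_type]
      simp only [w', Sum.elim_inl, Units.val_one, mul_one]
      rw [Finset.prod_const, Finset.card_univ, Fintype.card_prod, Fintype.card_fin]
      simp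
      ring
    rw [h3]
    exact hδ.mul (IsSquare.sq _)
  have hEq : (plusQ 2 F).Equivalent (WS w') :=
    equivalent_WS hF (polarNondeg_plusQ 2) hX (Sum.inl (0, 0)) w' b hd'
  obtain ⟨φ⟩ := hEq
  let e : Cfsg.isometryGroup F (⇑(plusQ 2 F)) ≃* orthGroup (QV (Fin 2) w) :=
    (isoOrth (plusQ 2 F)).trans (orthEquiv (φ.trans (wsToQV (Fin 2) w)))
  have hc : Nat.card (orthGroup (QV (Fin 2) w)) = Nat.card (Cfsg.isometryGroup F (⇑(plusQ 2 F))) :=
    (Nat.card_congr e.toEquiv).symm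
  have hord := Cfsg.Agent.S0287.result (F := F) rfl 2 (by omega)
  have hΩ : (commutator (Cfsg.isometryGroup F (⇑(plusQ 2 F)))).index = 4 :=
    Cfsg.Agent.Lib.Classical.Orth.Spinor.omega_index (plusQ 2 F) (nondeg_of_polarNondeg _ (polarNondeg_plusQ 2)) h2
      (by simp)
  have h := sqAll_of_equiv e (model_main₂ h2 w (by
    rw [hc, v2_plane hF, coe_plusQ, hord]
    simpa using v2_plus_good hF hq1 (m := 2) (by omega) (Or.inl (by decide)))
    (index_commutator_of_equiv e hΩ)) P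
  exact h

end Main

end Cfsg.Agent.Lib.Char.SylowSq.Two
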